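import Cfsg.Agent.DihSolv.Main
import Cfsg.Agent.S4689

/-!
# A central involution makes a block with dihedral defect group nilpotent
-/

set_option autoImplicit false
set_option linter.style.haveILetI false
set_option linter.unusedSectionVars false

namespace Cfsg.Agent.DihSolv

open Cfsg Cfsg.Agent.BrauerPairs

universe u

variable {G : Type u} [Group G] [Fintype G]

theorem mem_defectGroup_of_center {p : ℕ} [Fact p.Prime] {M : Ideal AlgInt}
    {B : Set (IrrCharacter G)} {D : Subgroup G} (hD : IsDefectGroup p M B D) {z : G}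
    (hz : z ∈ Subgroup.center G) (hzp : ∃ k : ℕ, orderOf z = p ^ k) : z ∈ D := by
  obtain ⟨g, -, P, rfl⟩ := hD
  obtain ⟨k, hk⟩ := hzp
  let C := Subgroup.centralizer ({g} : Set G)
  have hzC : z ∈ C := Subgroup.mem_centralizer_singleton_iff.2
    (Subgroup.mem_center_iff.1 hz g).symm
  haveI hn : (Subgroup.zpowers (⟨z, hzC⟩ : C)).Normal := by
    refine ⟨fun x hx c => ?_⟩
    have hcen : (⟨z, hzC⟩ : C) ∈ Subgroup.center C :=
      Subgroup.mem_center_iff.2 fun c => Subtype.ext (Subgroup.mem_center_iff.1 hz c)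
    obtain ⟨i, rfl⟩ := Subgroup.mem_zpowers_iff.1 hx
    rw [Subgroup.mem_center_iff.1 (zpow_mem hcen i) c, mul_inv_cancel_right]
    exact zpow_mem (Subgroup.mem_zpowers _) i
  have hle := (IsPGroup.of_card (n := k) (by rw [Nat.card_zpowers, Subgroup.orderOf_mk, hk]) :
    IsPGroup p (Subgroup.zpowers (⟨z, hzC⟩ : C))).le_sylow_of_normal P
  exact ⟨⟨z, hzC⟩, hle (Subgroup.mem_zpowers _), rfl⟩

/-- An element of odd order centralizes the cyclic 2-group it normalizes. -/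
theorem commute_of_cyclic {c x : G} {j : ℕ} (hc : orderOf c = 2 ^ j) (hx : ¬ 2 ∣ orderOf x)
    (hN : x * c * x⁻¹ ∈ Subgroup.zpowers c) : x * c = c * x := by
  have hxN : x ∈ Subgroup.normalizer (Subgroup.zpowers c : Set G) := by
    rw [Subgroup.mem_normalizer_iff_map_conj_eq]
    refine Subgroup.eq_of_le_of_card_ge ?_ (Subgroup.card_map_of_injective
      (MulAut.conj x).injective).ge
    rw [MonoidHom.map_zpowers, Subgroup.zpowers_le]
    exact hN
  set n : Subgroup.normalizer (Subgroup.zpowers c : Set G) := ⟨x, hxN⟩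
  have h1 := orderOf_map_dvd (Subgroup.normalizerMonoidHom (Subgroup.zpowers c)) n
  rw [Subgroup.orderOf_mk] at h1
  have h2 := orderOf_dvd_natCard (Subgroup.normalizerMonoidHom (Subgroup.zpowers c) n)
  rw [IsCyclic.card_mulAut, Nat.card_zpowers, hc] at h2
  have h3 : orderOf (Subgroup.normalizerMonoidHom (Subgroup.zpowers c) n) = 1 := by
    rcases j with - | j
    · rw [pow_zero, Nat.totient_one] at h2
      exact Nat.dvd_one.1 h2
    · rw [Nat.totient_prime_pow Nat.prime_two j.succ_pos] at h2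
      simp only [show (2 : ℕ) - 1 = 1 from rfl, mul_one] at h2
      obtain ⟨i, -, hi⟩ := (Nat.dvd_prime_pow Nat.prime_two).1 h2
      rcases i with - | i
      · rw [hi, pow_zero]
      · exact absurd ((hi ▸ dvd_pow_self 2 i.succ_ne_zero).trans h1) hx
  rw [orderOf_eq_one_iff] at h3
  have h4 := congrArg Subtype.val (DFunLike.congr_fun h3
    (⟨c, Subgroup.mem_zpowers c⟩ : Subgroup.zpowers c))
  exact mul_inv_eq_iff_eq_mul.1 h4

/-- An element of odd order fixing a cyclic subgroup of index at most two pointwise. -/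
theorem commute_of_fix {Q : Subgroup G} {c x : G} (hc : c ∈ Q) (hcp : ∃ j : ℕ, orderOf c = 2 ^ j) (hx : ¬ 2 ∣ orderOf x)
    (hN : ∀ q ∈ Q, x * q * x⁻¹ ∈ Q) (hfix : x * c = c * x)
    (hidx : ∀ q ∈ Q, ∀ r ∈ Q, q ∉ Subgroup.zpowers c → r ∉ Subgroup.zpowers c →
      r * q⁻¹ ∈ Subgroup.zpowers c) :
    ∀ q ∈ Q, x * q = q * x := by
  have hfixz : ∀ d ∈ Subgroup.zpowers c, x * d = d * x := by
    intro d hd
    obtain ⟨i, rfl⟩ := Subgroup.mem_zpowers_iff.1 hd
    exact ((show Commute x c from hfix).zpow_right i).eq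
  intro q hq
  by_cases hqC : q ∈ Subgroup.zpowers c
  · exact hfixz q hqC
  have hxq : x * q * x⁻¹ ∉ Subgroup.zpowers c := by
    intro h
    have h1 := hfixz _ h
    have h2 : x * q * x⁻¹ = q := mul_left_cancel (h1.trans (by group))
    exact hqC (h2 ▸ h)
  set d := x * q * x⁻¹ * q⁻¹ with hd
  have hdC : d ∈ Subgroup.zpowers c := hidx q hq _ (hN q hq) hqC hxq
  have hit : ∀ i : ℕ, x ^ i * q * (x ^ i)⁻¹ = d ^ i * q := by
    intro i
    induction i with
    | zero => simp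
    | succ i ih =>
      have hdx : x * d ^ i * x⁻¹ = d ^ i := by
        rw [hfixz _ (pow_mem hdC i), mul_inv_cancel_right]
      calc x ^ (i + 1) * q * (x ^ (i + 1))⁻¹ = x * (x ^ i * q * (x ^ i)⁻¹) * x⁻¹ := by
            rw [pow_succ']; group
        _ = x * (d ^ i * q) * x⁻¹ := by rw [ih]
        _ = (x * d ^ i * x⁻¹) * (x * q * x⁻¹) := by group
        _ = d ^ i * (d * q) := by
            rw [hdx, show d * q = x * q * x⁻¹ from inv_mul_cancel_right _ q]
        _ = d ^ (i + 1) * q := by rw [pow_succ, mul_assoc (d ^ i) d q]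
  have h1 := hit (orderOf x)
  rw [pow_orderOf_eq_one, one_mul, inv_one, mul_one] at h1
  have h2 : d ^ orderOf x = 1 := mul_eq_right.1 h1.symm
  have hd1 : d = 1 := by
    rw [← orderOf_eq_one_iff]
    obtain ⟨j, hj⟩ := hcp
    obtain ⟨i, -, hi⟩ := (Nat.dvd_prime_pow Nat.prime_two).1
      (hj ▸ orderOf_dvd_of_mem_zpowers hdC)
    rcases i with - | i
    · rw [hi, pow_zero]
    · exact absurd ((hi ▸ dvd_pow_self 2 i.succ_ne_zero).trans (orderOf_dvd_of_pow_eq_one h2)) hx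
  rw [hd, mul_inv_eq_one] at hd1
  exact mul_inv_eq_iff_eq_mul.1 hd1

theorem centralizes_of_le {D Q : Subgroup G} (hD2 : IsPGroup 2 D) {m : ℕ} (hm : 4 ≤ m)
    (e : D ≃* DihedralGroup m) (hQ : Q ≤ D) {z : G} (hz : z ∈ Subgroup.center G)
    (hz2 : orderOf z = 2) (hzD : z ∈ D) {x : G} (hxN : x ∈ Subgroup.normalizer (Q : Set G))
    (hx : ¬ 2 ∣ orderOf x) : ∀ q ∈ Q, x * q = q * x := by
  haveI : NeZero m := ⟨by omega⟩
  let σ : G := ((e.symm (DihedralGroup.r 1) : D) : G)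
  have hσ : ∀ d : D, (d : G) ∈ Subgroup.zpowers σ ↔ ∃ i, e d = DihedralGroup.r i := by
    intro d
    constructor
    · rintro ⟨k, hk⟩
      have : d = (e.symm (DihedralGroup.r 1)) ^ k := Subtype.ext (by simpa [σ] using hk.symm)
      exact ⟨k, by rw [this, map_zpow, e.apply_symm_apply, DihedralGroup.r_one_zpow]⟩
    · rintro ⟨i, hi⟩
      refine ⟨(i.cast : ℤ), ?_⟩
      have : (e.symm (DihedralGroup.r 1)) ^ (i.cast : ℤ) = d := e.injective (by
        rw [map_zpow, e.apply_symm_apply, DihedralGroup.r_one_zpow, hi, ZMod.intCast_zmod_cast])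
      rw [← this]
      simp [σ]
  have hout : ∀ q ∈ D, q ∉ Subgroup.zpowers σ → orderOf q = 2 := by
    intro q hq hn
    rcases he : e ⟨q, hq⟩ with i | i
    · exact absurd ((hσ ⟨q, hq⟩).2 ⟨i, he⟩) hn
    · rw [← Subgroup.orderOf_mk q hq, ← e.orderOf_eq, he, DihedralGroup.orderOf_sr]
  have hprod : ∀ q ∈ D, ∀ r ∈ D, q ∉ Subgroup.zpowers σ → r ∉ Subgroup.zpowers σ →
      r * q⁻¹ ∈ Subgroup.zpowers σ := by
    intro q hq r hr hnq hnr
    rcases he : e ⟨q, hq⟩ with i | i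
    · exact absurd ((hσ ⟨q, hq⟩).2 ⟨i, he⟩) hnq
    rcases he' : e ⟨r, hr⟩ with j | j
    · exact absurd ((hσ ⟨r, hr⟩).2 ⟨j, he'⟩) hnr
    refine (hσ (⟨r, hr⟩ * ⟨q, hq⟩⁻¹)).2 ⟨i - j, ?_⟩
    rw [map_mul, map_inv, he, he']
    rfl
  have hzσ : z ∈ Subgroup.zpowers σ := by
    rcases he : e ⟨z, hzD⟩ with i | i
    · exact (hσ ⟨z, hzD⟩).2 ⟨i, he⟩
    exfalso
    have h := congrArg e (Subtype.ext (Subgroup.mem_center_iff.1 hz σ) :
      (e.symm (DihedralGroup.r 1)) * ⟨z, hzD⟩ = ⟨z, hzD⟩ * (e.symm (DihedralGroup.r 1)))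
    rw [map_mul, map_mul, e.apply_symm_apply, he, DihedralGroup.r_mul_sr, DihedralGroup.sr_mul_r] at h
    have h2 := DihedralGroup.sr.inj h
    have h3 : ((2 : ℕ) : ZMod m) = 0 := by push_cast; linear_combination -h2
    rw [ZMod.natCast_eq_zero_iff] at h3
    have := Nat.le_of_dvd two_pos h3
    omega
  set Z := Subgroup.zpowers z
  set Q' := Q ⊔ Z with hQ'
  have hQ'D : Q' ≤ D := sup_le hQ (Subgroup.zpowers_le.2 hzD)
  have hmap : Q'.map (MulAut.conj x).toMonoidHom = Q' := by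
    rw [hQ', Subgroup.map_sup, MonoidHom.map_zpowers]
    congr 1
    · exact Subgroup.mem_normalizer_iff_map_conj_eq.1 hxN
    · congr 1
      show x * z * x⁻¹ = z
      rw [Subgroup.mem_center_iff.1 hz x, mul_inv_cancel_right]
  have hN : ∀ q ∈ Q', x * q * x⁻¹ ∈ Q' := fun q hq => hmap ▸ ⟨q, hq, rfl⟩
  obtain ⟨⟨c, hcQ, hcσ⟩, hgen⟩ := (Subgroup.isCyclic_of_le (show Q' ⊓ Subgroup.zpowers σ ≤
    Subgroup.zpowers σ from inf_le_right)).exists_generator
  have hmem : ∀ q ∈ Q', q ∈ Subgroup.zpowers σ → q ∈ Subgroup.zpowers c := by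
    intro q hq hqσ
    obtain ⟨i, hi⟩ := Subgroup.mem_zpowers_iff.1 (hgen ⟨q, hq, hqσ⟩)
    exact ⟨i, by simpa using congrArg Subtype.val hi⟩
  have hzc : z ∈ Subgroup.zpowers c :=
    hmem z (Subgroup.mem_sup_right (Subgroup.mem_zpowers z)) hzσ
  obtain ⟨j, hj⟩ := IsPGroup.iff_orderOf.1 hD2 ⟨c, hQ'D hcQ⟩
  rw [Subgroup.orderOf_mk] at hj
  have hfix : x * c = c * x := by
    by_cases h2 : orderOf c ≤ 2
    · have heq : Subgroup.zpowers z = Subgroup.zpowers c :=
        Subgroup.eq_of_le_of_card_ge (Subgroup.zpowers_le.2 hzc)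
          (by rw [Nat.card_zpowers, Nat.card_zpowers, hz2]; exact h2)
      obtain ⟨i, hi⟩ := Subgroup.mem_zpowers_iff.1
        (show c ∈ Subgroup.zpowers z from heq ▸ Subgroup.mem_zpowers c)
      rw [← hi]
      exact Subgroup.mem_center_iff.1 (zpow_mem hz i) x
    · refine commute_of_cyclic hj hx (hmem _ (hN c hcQ) ?_)
      by_contra hn
      have h3 := hout _ (hQ'D (hN c hcQ)) hn
      rw [← MulAut.conj_apply, MulEquiv.orderOf_eq] at h3
      omega
  intro q hq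
  refine commute_of_fix hcQ ⟨j, hj⟩ hx hN hfix (fun q hq r hr hnq hnr => ?_) q
    (Subgroup.mem_sup_left hq)
  exact hmem _ (mul_mem hr (inv_mem hq)) (hprod q (hQ'D hq) r (hQ'D hr)
    (fun h => hnq (hmem q hq h)) (fun h => hnr (hmem r hr h)))

theorem blockRank_eq_one_of_center [Fact (Nat.Prime 2)] {M : Ideal AlgInt} (hM : IsPModular 2 M)
    {B : Set (IrrCharacter G)} (hB : IsPBlock M B) {D : Subgroup G}
    (hD : IsDefectGroup 2 M B D) {m : ℕ} (hm : 4 ≤ m) (e : D ≃* DihedralGroup m) {z : G}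
    (hz : z ∈ Subgroup.center G) (hz2 : orderOf z = 2) : blockRank 2 B = 1 := by
  haveI : M.IsPrime := hM.2.1.isPrime
  haveI := Block.charP_resF hM
  refine (Agent.S4689.result 2 M hM B ⟨hB, fun Q f hQf x hxN _ hxreg => ?_⟩).1
  let B' : Blk M G := ⟨B, hB⟩
  have hpair := (isBrauerPairOf_iff B' Q ⟨f, hQf.1.2⟩).1 hQf
  obtain ⟨b, hle, hb⟩ := exists_maxPair_above hpair
  obtain ⟨y, hy⟩ := (isDef_of_isDefectGroup (B := B') hD).exists_conj hb.isDef
  have hD2 : IsPGroup 2 D := Block.isDefectGroup_isPGroup hD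
  have hzD : z ∈ D := mem_defectGroup_of_center hD hz ⟨1, by rw [hz2, pow_one]⟩
  let ε : D ≃* (b.1 : Subgroup G) :=
    (D.equivMapOfInjective (MulAut.conj y).toMonoidHom (MulAut.conj y).injective).trans
      (MulEquiv.subgroupCongr hy.symm)
  have hzb : z ∈ b.1 := hy ▸ ⟨z, hzD, by
    show y * z * y⁻¹ = z
    rw [Subgroup.mem_center_iff.1 hz y, mul_inv_cancel_right]⟩
  have key := centralizes_of_le (hD2.of_equiv ε) hm (ε.symm.trans e) hle.le hz hz2 hzb hxN hxreg
  exact Subgroup.mem_centralizer_iff.2 fun q hq => (key q hq).symm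

end Cfsg.Agent.DihSolv
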