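import Cfsg.Agent.BlkWat.Trace
import Cfsg.Agent.Brauer.KleinFourBlock

/-!
# The number of characters of a block as a sum over the fusion classes of the defect group
-/

noncomputable section

set_option autoImplicit false
set_option maxHeartbeats 400000
set_option linter.unusedSectionVars false
set_option linter.style.haveILetI false

namespace Cfsg.Agent.FusionCount

open Cfsg Cfsg.Agent.BrauerPairs Cfsg.Agent.BrauerPairs.Nil Cfsg.Agent.BlkStar Cfsg.Agent.BlkWat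
open Cfsg.Agent.BlkChar.Contrib
open scoped ComplexConjugate Classical

universe u

variable {p : ℕ} [Fact p.Prime] {M : Ideal AlgInt} [M.IsPrime] [CharP (Block.ResF M) p]
  {G : Type u} [Group G] [Fintype G] (D : SD p M G)

/-- The elements fused to `v` by the fusion system of the block. -/
def cls (v : D.P) : Finset D.P :=
  Finset.univ.filter fun v' => ∃ g b, D.Link (v' : G) b (g, v) ∧
    SLE (pairSys M G) p b ⟨D.P, D.e⟩

theorem mem_cls {v v' : D.P} : v' ∈ cls D v ↔ ∃ g b, D.Link (v' : G) b (g, v) ∧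
    SLE (pairSys M G) p b ⟨D.P, D.e⟩ := by simp [cls]

theorem self_mem_cls (v : D.P) : v ∈ cls D v := by
  obtain ⟨f, hf⟩ := D.exists_pair v
  exact (mem_cls D).2 ⟨1, _, ⟨by simp, _, hf, rfl, cjRel_self_of_mem_stab (one_mem _)⟩, hf⟩

theorem cls_symm {v v' : D.P} (h : v' ∈ cls D v) : v ∈ cls D v' := by
  obtain ⟨g, b, hl, hb⟩ := (mem_cls D).1 h
  have hb1 := hl.fst_eq
  obtain ⟨h1, b₀, hb₀, -, hc⟩ := hl
  refine (mem_cls D).2 ⟨g⁻¹, b₀, ⟨?_, b, hb, hb1, hc.symm⟩, hb₀⟩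
  have h1' : g * (v : G) * g⁻¹ = (v' : G) := h1
  show g⁻¹ * (v' : G) * g⁻¹⁻¹ = v
  rw [← h1']
  group

theorem cls_trans {v v' v'' : D.P} (h : v' ∈ cls D v) (h' : v'' ∈ cls D v') : v'' ∈ cls D v := by
  obtain ⟨g, b, hl, hb⟩ := (mem_cls D).1 h
  obtain ⟨g', c, hl', hc⟩ := (mem_cls D).1 h'
  have hb1 := hl.fst_eq
  obtain ⟨h1, b₀, hb₀, hb₀1, hb₀c⟩ := hl
  obtain ⟨h1', c₀, hc₀, hc₀1, hc₀c⟩ := hl'
  obtain rfl : c₀ = b := D.eq_of_sle hc₀ hb (hc₀1.trans hb1.symm)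
  refine (mem_cls D).2 ⟨g' * g, c, ⟨?_, b₀, hb₀, hb₀1, hb₀c.trans hc₀c⟩, hc⟩
  have e1 : g * (v : G) * g⁻¹ = (v' : G) := h1
  have e2 : g' * (v' : G) * g'⁻¹ = (v'' : G) := h1'
  show g' * g * (v : G) * (g' * g)⁻¹ = v''
  rw [← e2, ← e1]
  group

theorem cls_eq_of_mem {v v' : D.P} (h : v' ∈ cls D v) : cls D v' = cls D v := by
  ext w
  exact ⟨cls_trans D h, cls_trans D (cls_symm D h)⟩

theorem mem_cls_of_link {w : G} {a : PairIdx M G} {g₀ : G} {v₀ : D.P}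
    (h₀ : D.Link w a (g₀, v₀)) {x : G × D.P} (hx : D.Link w a x) : x.2 ∈ cls D v₀ := by
  obtain ⟨e₀, b₀, hb₀, hb₀1, hb₀c⟩ := h₀
  obtain ⟨e, b, hb, hb1, hbc⟩ := hx
  refine (mem_cls D).2 ⟨x.1⁻¹ * g₀, b, ⟨?_, b₀, hb₀, hb₀1, hb₀c.trans hbc.symm⟩, hb⟩
  have e1 : g₀ * (v₀ : G) * g₀⁻¹ = w := e₀
  have e2 : x.1 * (x.2 : G) * x.1⁻¹ = w := e
  show x.1⁻¹ * g₀ * (v₀ : G) * (x.1⁻¹ * g₀)⁻¹ = x.2
  calc x.1⁻¹ * g₀ * (v₀ : G) * (x.1⁻¹ * g₀)⁻¹ = x.1⁻¹ * (g₀ * (v₀ : G) * g₀⁻¹) * x.1 := by group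
    _ = x.1⁻¹ * (x.1 * (x.2 : G) * x.1⁻¹) * x.1 := by rw [e1, e2]
    _ = (x.2 : G) := by group

theorem exists_link_of_mem_cls {w : G} {a : PairIdx M G} {g₀ : G} {v₀ v : D.P}
    (h₀ : D.Link w a (g₀, v₀)) (hv : v ∈ cls D v₀) : ∃ g, D.Link w a (g, v) := by
  obtain ⟨g, c, hl, hc⟩ := (mem_cls D).1 hv
  have hc1 := hl.fst_eq
  obtain ⟨e₀, b₀, hb₀, hb₀1, hb₀c⟩ := h₀
  obtain ⟨e, c₀, hc₀, hc₀1, hc₀c⟩ := hl
  obtain rfl : c₀ = b₀ := D.eq_of_sle hc₀ hb₀ (hc₀1.trans hb₀1.symm)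
  refine ⟨g₀ * g⁻¹, ?_, c, hc, hc1, hc₀c.symm.trans hb₀c⟩
  have e1 : g₀ * (v₀ : G) * g₀⁻¹ = w := e₀
  have e2 : g * (v₀ : G) * g⁻¹ = (v : G) := e
  show g₀ * g⁻¹ * (v : G) * (g₀ * g⁻¹)⁻¹ = w
  rw [← e2, ← e1]
  group

/-- A fused element is the image under a map of the fusion system. -/
theorem exists_hom_of_mem_cls {v v' : D.P} (h : v' ∈ cls D v) :
    ∃ φ ∈ D.F.Hom (Subgroup.zpowers (v : G)),
      φ ⟨(v : G), Subgroup.mem_zpowers _⟩ = (v' : G) := by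
  obtain ⟨g, b, ⟨h1, ⟨Q, f⟩, hf, hQ, hc⟩, hb⟩ := (mem_cls D).1 h
  obtain rfl : Q = Subgroup.zpowers (v : G) := hQ
  exact ⟨conjHom _ g, (mem_hom_iff D.isFS).2
    ⟨Subgroup.zpowers_le.2 v.2, g, fun _ => rfl, f, hf, b, hc, hb⟩, h1⟩

/-- The elements linked to a subsection. -/
def fibre (w : G) (a : PairIdx M G) : Finset (G × D.P) :=
  Finset.univ.filter (D.Link w a)

theorem card_fibre {w : G} {a : PairIdx M G}
    {g₀ : G} {v₀ : D.P} (h₀ : D.Link w a (g₀, v₀)) :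
    (fibre D w a).card = (cls D v₀).card *
      Nat.card (Subgroup.centralizer (a.1 : Set G)) := by
  have haQ : a.1 = Subgroup.zpowers w := h₀.fst_eq
  have hmaps : ∀ x ∈ fibre D w a, x.2 ∈ cls D v₀ := fun x hx =>
    mem_cls_of_link D h₀ (Finset.mem_filter.1 hx).2
  rw [Finset.card_eq_sum_card_fiberwise hmaps, Finset.sum_const_nat fun v hv => ?_]
  obtain ⟨g₁, hbase⟩ := exists_link_of_mem_cls D h₀ hv
  rw [Nat.card_eq_fintype_card, ← Finset.card_univ]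
  refine (Finset.card_bij (s := (Finset.univ : Finset (Subgroup.centralizer (a.1 : Set G))))
    (t := (fibre D w a).filter (fun x => x.2 = v))
    (fun c _ => ((c : G) * g₁, v)) (fun c _ => ?_)
    (fun c _ c' _ h => Subtype.ext (mul_right_cancel (Prod.ext_iff.1 h).1)) fun x hx => ?_).symm
  · refine Finset.mem_filter.2 ⟨Finset.mem_filter.2 ⟨Finset.mem_univ _, ?_⟩, rfl⟩
    have h := hbase.conj (cjRel_self_of_mem_stab (centralizer_le_stab a c.2))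
    rwa [← Subgroup.mem_centralizer_iff.1 c.2 w (haQ ▸ Subgroup.mem_zpowers w),
      mul_inv_cancel_right] at h
  · obtain ⟨hx1, hx2⟩ := Finset.mem_filter.1 hx
    obtain ⟨g, v'⟩ := x
    obtain rfl : v' = v := hx2
    have e1 : g * (v' : G) * g⁻¹ = w := (Finset.mem_filter.1 hx1).2.1
    have e2 : g₁ * (v' : G) * g₁⁻¹ = w := hbase.1
    have hc : g * g₁⁻¹ ∈ Subgroup.centralizer (a.1 : Set G) := by
      rw [haQ, Brauer.centralizer_zpowers_eq, Subgroup.mem_centralizer_singleton_iff]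
      calc g * g₁⁻¹ * w
          = g * g₁⁻¹ * (g₁ * (v' : G) * g₁⁻¹) := by rw [e2]
        _ = g * (v' : G) * g⁻¹ * (g * g₁⁻¹) := by group
        _ = w * (g * g₁⁻¹) := by rw [e1]
    exact ⟨⟨_, hc⟩, Finset.mem_univ _, by rw [inv_mul_cancel_right]⟩

/-- The trace of a linear character acting on the block, over the defect group. -/
theorem sum_classInner_star {l : D.P →* ℂˣ}
    (hl : D.Triv l) :
    ∑ χ ∈ Finset.univ.filter (· ∈ D.B.1), classInner (D.star l (χ : G → ℂ)) (χ : G → ℂ) =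
      ∑ v : D.P, (l v : ℂ) * (rkAt p (⟨D.P, D.e⟩ : PairIdx M G) (Subgroup.zpowers (v : G)) : ℂ) /
        ((cls D v).card : ℂ) := by
  have hG0 : (Nat.card G : ℂ) ≠ 0 := Nat.cast_ne_zero.2 Nat.card_pos.ne'
  simp only [classInner, D.sum_star_mul_conj, ← Finset.mul_sum]
  rw [inv_mul_eq_iff_eq_mul₀ hG0, Finset.sum_comm, Finset.sum_congr rfl fun w _ => Finset.sum_comm]
  simp only [← Finset.mul_sum]
  rw [Finset.sum_sigma']
  -- every element of the product is linked to exactly one subsection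
  set J := (pElts p G).sigma (fun w => pairsAt (M := M) w) with hJ
  let F : G × D.P → ℂ := fun x =>
    (l x.2 : ℂ) * (rkAt p (⟨D.P, D.e⟩ : PairIdx M G) (Subgroup.zpowers (x.2 : G)) : ℂ) /
      ((cls D x.2).card : ℂ)
  have huniq : ∀ x : G × D.P, (J.filter fun τ => D.Link τ.1 τ.2 x).card = 1 := by
    intro x
    obtain ⟨f, hf⟩ := D.exists_pair x.2
    obtain ⟨b, hb⟩ := exists_cjRel (S := pairSys M G) x.1
      (⟨Subgroup.zpowers (x.2 : G), f⟩ : PairIdx M G)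
    have hl' : D.Link (x.1 * (x.2 : G) * x.1⁻¹) b x := ⟨rfl, _, hf, rfl, hb⟩
    refine Finset.card_eq_one.2 ⟨⟨_, b⟩, Finset.eq_singleton_iff_unique_mem.2
      ⟨Finset.mem_filter.2 ⟨Finset.mem_sigma.2 ⟨mem_pElts.2 hl'.exists_orderOf,
        mem_pairsAt.2 hl'.fst_eq⟩, hl'⟩, ?_⟩⟩
    rintro ⟨w, c⟩ hc
    obtain ⟨hw, c₀, hc₀, hc₀1, hc₀c⟩ := (Finset.mem_filter.1 hc).2
    obtain rfl : x.1 * (x.2 : G) * x.1⁻¹ = w := hw
    obtain rfl : c₀ = ⟨Subgroup.zpowers (x.2 : G), f⟩ := D.eq_of_sle hc₀ hf hc₀1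
    obtain rfl : c = b := hc₀c.unique hb
    rfl
  have hswap : ∑ τ ∈ J, ∑ x ∈ fibre D τ.1 τ.2, F x = (Nat.card G : ℂ) * ∑ v : D.P, F (1, v) := by
    have h1 : ∑ τ ∈ J, ∑ x ∈ fibre D τ.1 τ.2, F x =
        ∑ x : G × D.P, ∑ τ ∈ J.filter (fun τ => D.Link τ.1 τ.2 x), F x :=
      Finset.sum_comm' (fun τ x => by simp [fibre])
    rw [h1]
    simp only [Finset.sum_const, huniq, one_smul]
    rw [Fintype.sum_prod_type]
    simp only [F, Finset.sum_const, Finset.card_univ, nsmul_eq_mul, Nat.card_eq_fintype_card]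
  rw [← hswap]
  refine Finset.sum_congr rfl fun τ hτ => ?_
  obtain ⟨w, a⟩ := τ
  obtain ⟨hw, ha⟩ := Finset.mem_sigma.1 hτ
  obtain ⟨k, hk⟩ := mem_pElts.1 hw
  by_cases hne : ∃ x, D.Link w a x
  · obtain ⟨⟨g₀, v₀⟩, h₀⟩ := hne
    show D.lt l w a * _ = ∑ x ∈ fibre D w a, F x
    rw [SD.lt_eq hl h₀, sum_secReg_self D hk (mem_pairsAt.1 ha) h₀.pairOf]
    have hFx : ∀ x ∈ fibre D w a, F x = (l v₀ : ℂ) * (blockRank p a.2.1 : ℂ) /
        ((cls D v₀).card : ℂ) := by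
      intro x hx
      have hLx := (Finset.mem_filter.1 hx).2
      have h1 : (l x.2 : ℂ) = l v₀ := by
        rw [← SD.lt_eq hl hLx, SD.lt_eq hl h₀]
      have hLx' := hLx
      obtain ⟨hx1, b, hb, hb1, hbc⟩ := hLx
      have h2 : rkAt p (⟨D.P, D.e⟩ : PairIdx M G) (Subgroup.zpowers (x.2 : G)) =
          blockRank p a.2.1 := by
        rw [← hb1, rkAt_eq_pair D.isPGroup hb, blockRank_eq_of_cjRel hbc]
      have h3 : cls D x.2 = cls D v₀ := cls_eq_of_mem D (mem_cls_of_link D h₀ hLx')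
      show _ / _ = _
      rw [h1, h2, h3]
    rw [Finset.sum_congr rfl hFx, Finset.sum_const, card_fibre D h₀, nsmul_eq_mul,
      Nat.cast_mul]
    have ho : ((cls D v₀).card : ℂ) ≠ 0 :=
      Nat.cast_ne_zero.2 (Finset.card_pos.2 ⟨v₀, self_mem_cls D v₀⟩).ne'
    field_simp
  · have he : fibre D w a = ∅ :=
      Finset.eq_empty_of_forall_notMem fun x hx => hne ⟨x, (Finset.mem_filter.1 hx).2⟩
    show D.lt l w a * _ = ∑ x ∈ fibre D w a, F x
    rw [he, Finset.sum_empty, SD.lt_eq_zero fun x hx => hne ⟨x, hx⟩, zero_mul]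

/-- The number of characters of the block. -/
theorem card_eq_sum_rk :
    (Nat.card D.B.1 : ℂ) =
      ∑ v : D.P, (rkAt p (⟨D.P, D.e⟩ : PairIdx M G) (Subgroup.zpowers (v : G)) : ℂ) /
        ((cls D v).card : ℂ) := by
  have h := sum_classInner_star D (l := 1) fun _ _ => rfl
  simp only [MonoidHom.one_apply, Units.val_one, one_mul] at h
  rw [← h, Finset.sum_congr rfl (g := fun _ => (1 : ℂ)) fun χ hχ => by
    rw [D.star_one_char (Finset.mem_filter.1 hχ).2, Char.classInner_irr_self χ.2]]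
  simp [Nat.card_eq_fintype_card, Fintype.card_subtype]

theorem cls_one : cls D 1 = {1} := by
  refine Finset.eq_singleton_iff_unique_mem.2 ⟨self_mem_cls D 1, fun v hv => ?_⟩
  obtain ⟨g, b, ⟨h1, -⟩, -⟩ := (mem_cls D).1 hv
  refine Subtype.ext ?_
  have h1' : g * ((1 : D.P) : G) * g⁻¹ = (v : G) := h1
  rw [← h1', OneMemClass.coe_one, mul_one, mul_inv_cancel]

theorem rkAt_one :
    rkAt p (⟨D.P, D.e⟩ : PairIdx M G) (Subgroup.zpowers ((1 : D.P) : G)) = blockRank p D.B.1 := by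
  rw [OneMemClass.coe_one, Subgroup.zpowers_one_eq_bot]
  obtain ⟨f, hf⟩ := (existsUnique_sle (S := pairSys M G) (b := (⟨D.P, D.e⟩ : PairIdx M G))
    D.isPGroup (bot_le : (⊥ : Subgroup G) ≤ D.P)).exists
  rw [rkAt_eq (f := f) D.isPGroup hf]
  exact blockRank_eq_of_pairOf_bot (hf.pairOf_iff.1 D.maxPair.1)

theorem one_le_rkAt (v : D.P) :
    1 ≤ rkAt p (⟨D.P, D.e⟩ : PairIdx M G) (Subgroup.zpowers (v : G)) := by
  obtain ⟨f, hf⟩ := D.exists_pair v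
  rw [rkAt_eq (f := f) D.isPGroup hf]
  haveI := Fintype.ofFinite (Subgroup.centralizer (Subgroup.zpowers (v : G) : Set G))
  exact Brauer.KleinBlock.blockRank_pos f.2

end Cfsg.Agent.FusionCount
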