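import Cfsg.Agent.BlockCover.Solvable
import Cfsg.Agent.Char.Linear
import Cfsg.Agent.Char.Orthogonality
import Cfsg.Agent.CharInd.Clifford
import Cfsg.Agent.BlockVal.HeightZero
import Cfsg.Prelude.Def_BlockRank
import Mathlib.GroupTheory.SpecificGroups.Cyclic
import Mathlib.RingTheory.RootsOfUnity.Complex

/-!
# The rank of the characters over an invariant character of a normal subgroup of odd order when
the quotient has at most one inverted element of order three
-/

set_option autoImplicit false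
set_option linter.style.haveILetI false
set_option linter.unusedSectionVars false

namespace Cfsg.Agent.DihSolv

open Cfsg
open scoped ComplexConjugate

universe u

variable {G : Type u} [Group G] [Fintype G] (N : Subgroup G) [N.Normal] [Fintype N]

/-- Class functions vanishing off the 2-regular elements. -/
def regFun (G : Type u) [Group G] : Submodule ℂ (G → ℂ) where
  carrier := {f | IsClassFunction G f ∧ ∀ g, 2 ∣ orderOf g → f g = 0}
  add_mem' {f f'} hf hf' := ⟨fun g h => by simp only [Pi.add_apply, hf.1 g h, hf'.1 g h],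
    fun g hg => by simp only [Pi.add_apply, hf.2 g hg, hf'.2 g hg, add_zero]⟩
  zero_mem' := ⟨fun _ _ => rfl, fun _ _ => rfl⟩
  smul_mem' c {f} hf := ⟨fun g h => by simp only [Pi.smul_apply, hf.1 g h],
    fun g hg => by simp only [Pi.smul_apply, hf.2 g hg, smul_zero]⟩

theorem pRegularPart_mem_regFun (χ : IrrCharacter G) :
    pRegularPart 2 (χ : G → ℂ) ∈ regFun G := by
  refine ⟨fun g h => ?_, fun g hg => if_neg (not_not.2 hg)⟩
  have ho : orderOf (h * g * h⁻¹) = orderOf g := by
    rw [← MulAut.conj_apply, MulEquiv.orderOf_eq]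
  unfold pRegularPart IsPRegular
  rw [ho, Char.irr_isClassFunction χ.2 g h]

/-- A linear map injective on the regular parts bounds the rank. -/
theorem blockRank_le_of_restrict {ι : Type*} (Φ : (G → ℂ) →ₗ[ℂ] ι → ℂ)
    (hinj : ∀ f ∈ regFun G, Φ f = 0 → f = 0) (B : Set (IrrCharacter G)) (T : Finset (ι → ℂ))
    (hT : ∀ χ ∈ B, Φ (pRegularPart 2 (χ : G → ℂ)) ∈ Submodule.span ℂ (T : Set (ι → ℂ))) :
    blockRank 2 B ≤ T.card := by
  classical
  set W := Submodule.span ℂ ((fun χ : IrrCharacter G => pRegularPart 2 (χ : G → ℂ)) '' B)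
  set V := Submodule.span ℂ (T : Set (ι → ℂ))
  haveI : FiniteDimensional ℂ V := FiniteDimensional.span_finset ℂ T
  have hW : W ≤ regFun G := by
    refine Submodule.span_le.2 ?_
    rintro _ ⟨χ, -, rfl⟩
    exact pRegularPart_mem_regFun χ
  have hWV : ∀ f ∈ W, Φ f ∈ V := by
    intro f hf
    have h : W ≤ V.comap Φ := by
      refine Submodule.span_le.2 ?_
      rintro _ ⟨χ, hχ, rfl⟩
      exact hT χ hχ
    exact h hf
  refine le_trans ?_ (finrank_span_finset_le_card (R := ℂ) T)
  refine LinearMap.finrank_le_finrank_of_injective (f := Φ.restrict hWV) ?_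
  rw [injective_iff_map_eq_zero]
  intro f hf
  exact Subtype.ext (hinj _ (hW f.2) (congrArg Subtype.val hf))

/-- An invariant constituent is the only one. -/
theorem res_eq_smul {χ : IrrCharacter G} {θ : IrrCharacter N}
    (hinv : ∀ x : G, Brauer.conjIrr N x θ = θ)
    (h0 : classInner (fun n : N => (χ : G → ℂ) n) (θ : N → ℂ) ≠ 0) :
    (fun n : N => (χ : G → ℂ) n) =
      classInner (fun n : N => (χ : G → ℂ) n) (θ : N → ℂ) • (θ : N → ℂ) := by
  classical
  have hc := CharInd.clifford N χ.2 θ.2 h0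
  have h1 : CharInd.conjClass N (θ : N → ℂ) = {(θ : N → ℂ)} := by
    refine Finset.eq_singleton_iff_unique_mem.2 ⟨?_, fun ψ hψ => ?_⟩
    · exact (CharInd.mem_conjClass N).2 ⟨1, (CharInd.conjChar_one N _).symm⟩
    · obtain ⟨x, rfl⟩ := (CharInd.mem_conjClass N).1 hψ
      exact congrArg Subtype.val (hinv x)
  rw [h1, Finset.sum_singleton] at hc
  exact hc

/-- With a 2-group as quotient the rank is one. -/
theorem rank_le_one {θ : IrrCharacter N} (hinv : ∀ x : G, Brauer.conjIrr N x θ = θ)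
    (hX : ∀ g : G, ¬ 2 ∣ orderOf g → g ∈ N) (B : Set (IrrCharacter G))
    (hB : ∀ χ ∈ B, classInner (fun n : N => (χ : G → ℂ) n) (θ : N → ℂ) ≠ 0) :
    blockRank 2 B ≤ 1 := by
  classical
  let Φ : (G → ℂ) →ₗ[ℂ] N → ℂ :=
    { toFun := fun f n => if 2 ∣ orderOf (n : G) then 0 else f n
      map_add' := fun f f' => funext fun n => by simp only [Pi.add_apply]; split_ifs <;> simp
      map_smul' := fun c f => funext fun n => by
        simp only [Pi.smul_apply, RingHom.id_apply]; split_ifs <;> simp }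
  let T : N → ℂ := fun n => if 2 ∣ orderOf (n : G) then 0 else (θ : N → ℂ) n
  refine (blockRank_le_of_restrict Φ (fun f hf h => funext fun g => ?_) B {T} ?_).trans
    (Finset.card_singleton T).le
  · by_cases hg : 2 ∣ orderOf g
    · exact hf.2 g hg
    · have := congrFun h ⟨g, hX g hg⟩
      exact (if_neg (c := 2 ∣ orderOf g) hg).symm.trans this
  · intro χ hχ
    refine Submodule.mem_span.2 fun S hS => ?_
    have e : Φ (pRegularPart 2 (χ : G → ℂ)) =
        classInner (fun n : N => (χ : G → ℂ) n) (θ : N → ℂ) • T := by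
      funext n
      show (if _ then (0 : ℂ) else _) = _ * (if _ then (0 : ℂ) else _)
      split_ifs with h
      · rw [mul_zero]
      · rw [show pRegularPart 2 (χ : G → ℂ) (n : G) = (χ : G → ℂ) n from if_pos h]
        exact congrFun (res_eq_smul N hinv (hB χ hχ)) n
    rw [e]
    exact S.smul_mem _ (hS (by simp))

variable {N}

theorem sum_subgroup {H : Subgroup G} [Fintype H] (hNH : N ≤ H) (g : H → ℂ)
    (h0 : ∀ h : H, (h : G) ∉ N → g h = 0) : ∑ n : N, g ⟨n, hNH n.2⟩ = ∑ h : H, g h := by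
  classical
  refine Fintype.sum_of_injective (fun n : N => (⟨(n : G), hNH n.2⟩ : H))
    (fun a b e => Subtype.ext (congrArg (fun x : H => (x : G)) e)) _ g (fun h hh => h0 h fun hN => ?_)
    fun _ => rfl
  exact hh ⟨⟨h, hN⟩, rfl⟩

open scoped Classical in
/-- A function on `N` extended by zero. -/
noncomputable def extN (H : Subgroup G) (θ : N → ℂ) : H → ℂ :=
  fun h => if hn : (h : G) ∈ N then θ ⟨h, hn⟩ else 0

theorem classInner_extN {H : Subgroup G} [Fintype H] (hNH : N ≤ H) (θ : N → ℂ) (f : H → ℂ) :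
    (Nat.card H : ℂ) * classInner (extN H θ) f =
      (Nat.card N : ℂ) * classInner θ (fun n : N => f ⟨n, hNH n.2⟩) := by
  classical
  simp only [classInner]
  rw [← mul_assoc, ← mul_assoc, mul_inv_cancel₀ (Nat.cast_ne_zero.2 Nat.card_pos.ne'),
    mul_inv_cancel₀ (Nat.cast_ne_zero.2 Nat.card_pos.ne'), one_mul, one_mul,
    ← sum_subgroup hNH (fun h => extN H θ h * conj (f h))
      (fun h hh => by simp [extN, hh])]
  refine Finset.sum_congr rfl fun n _ => ?_
  rw [extN, dif_pos n.2]

/-- The characters of a subgroup over `θ` are at most as many as the cosets of `N`. -/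
theorem card_over_le {H : Subgroup G} [Fintype H] (hNH : N ≤ H) {θ : IrrCharacter N}
    (hinv : ∀ x : G, Brauer.conjIrr N x θ = θ) {k : ℕ} (hk : Nat.card H = k * Nat.card N) :
    (Finset.univ.filter fun ψ : IrrCharacter H =>
      classInner (BlockCover.resN hNH (ψ : H → ℂ)) (θ : N → ℂ) ≠ 0).card ≤ k := by
  classical
  set F := extN H (θ : N → ℂ) with hF
  have hFc : IsClassFunction H F := by
    intro g h
    simp only [hF, extN]
    by_cases hg : (g : G) ∈ N
    · have hg' : ((h * g * h⁻¹ : H) : G) ∈ N := by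
        simpa using (inferInstance : N.Normal).conj_mem _ hg (h : G)
      rw [dif_pos hg, dif_pos hg']
      have := congrFun (congrArg Subtype.val (hinv (h : G))) ⟨g, hg⟩
      rw [show ((Brauer.conjIrr N (h : G) θ : IrrCharacter N) : N → ℂ) =
        CharInd.conjChar N (h : G) (θ : N → ℂ) from rfl, CharInd.conjChar_apply] at this
      rw [← this]
      congr 1
    · have hg' : ((h * g * h⁻¹ : H) : G) ∉ N := by
        intro hc
        apply hg
        have := (inferInstance : N.Normal).conj_mem _ hc (h : G)⁻¹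
        simpa [mul_assoc] using this
      rw [dif_neg hg, dif_neg hg']
  have hchar : ∀ ψ : IrrCharacter H, IsCharacter N (BlockCover.resN hNH (ψ : H → ℂ)) := fun ψ =>
    CharInd.isCharacter_comp (Subgroup.inclusion hNH) (Char.isCharacter_of_irr ψ.2)
  choose m hm using fun ψ : IrrCharacter H => Char.isCharacter_classInner_nat (hchar ψ) θ
  have hdeg : ∀ ψ : IrrCharacter H,
      m ψ * charDegree (θ : N → ℂ) ≤ charDegree (ψ : H → ℂ) := by
    intro ψ
    obtain ⟨c, hc, hc'⟩ := Char.isCharacter_exists_coeff (hchar ψ)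
    have h1 : (BlockCover.resN hNH (ψ : H → ℂ)) 1 = ∑ η, (c η : ℂ) * (η : N → ℂ) 1 := by
      conv_lhs => rw [hc]
      simp [Finset.sum_apply]
    simp only [(Block.irr_one_eq_charDegree (Subtype.property _)).1] at h1
    have h2 : BlockCover.resN hNH (ψ : H → ℂ) 1 = (charDegree (ψ : H → ℂ) : ℂ) := by
      show (ψ : H → ℂ) ⟨((1 : N) : G), _⟩ = _
      rw [← (Block.irr_one_eq_charDegree ψ.2).1]
      rfl
    rw [h2] at h1
    have h3 : charDegree (ψ : H → ℂ) = ∑ η, c η * charDegree (η : N → ℂ) := by exact_mod_cast h1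
    have h4 : c θ = m ψ := by exact_mod_cast (hc' θ).symm.trans (hm ψ)
    rw [h3, ← h4]
    exact Finset.single_le_sum (f := fun η => c η * charDegree (η : N → ℂ))
      (fun _ _ => Nat.zero_le _) (Finset.mem_univ θ)
  have hsum : k * charDegree (θ : N → ℂ) = ∑ ψ : IrrCharacter H, m ψ * charDegree (ψ : H → ℂ) := by
    have h1 := congrFun (Char.eq_sum_classInner_smul hFc) 1
    have h2 : F 1 = (charDegree (θ : N → ℂ) : ℂ) := by
      rw [hF, extN, dif_pos (show ((1 : H) : G) ∈ N from N.one_mem),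
        ← (Block.irr_one_eq_charDegree θ.2).1]
      rfl
    rw [h2, Finset.sum_apply] at h1
    have h3 : ∀ ψ : IrrCharacter H, (k : ℂ) * classInner F (ψ : H → ℂ) = (m ψ : ℂ) := by
      intro ψ
      have h4 := classInner_extN hNH (θ : N → ℂ) (ψ : H → ℂ)
      rw [hk, Nat.cast_mul, mul_comm (k : ℂ), mul_assoc] at h4
      rw [mul_left_cancel₀ (Nat.cast_ne_zero.2 Nat.card_pos.ne') h4,
        ← CharInd.classInner_swap]
      show conj (classInner (BlockCover.resN hNH (ψ : H → ℂ)) (θ : N → ℂ)) = _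
      rw [hm ψ, map_natCast]
    have h5 : ((k * charDegree (θ : N → ℂ) : ℕ) : ℂ) =
        ((∑ ψ : IrrCharacter H, m ψ * charDegree (ψ : H → ℂ) : ℕ) : ℂ) := by
      push_cast
      rw [h1, Finset.mul_sum]
      refine Finset.sum_congr rfl fun ψ _ => ?_
      rw [Pi.smul_apply, smul_eq_mul, ← mul_assoc, h3, (Block.irr_one_eq_charDegree ψ.2).1]
    exact_mod_cast h5
  have hpos : 0 < charDegree (θ : N → ℂ) :=
    Nat.pos_of_ne_zero (BlockVal.irr_one_eq_charDegree θ).2
  refine Nat.le_of_mul_le_mul_right ?_ hpos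
  rw [hsum, ← smul_eq_mul, ← Finset.sum_const]
  refine le_trans (Finset.sum_le_sum fun ψ hψ => ?_)
    (Finset.sum_le_sum_of_subset (Finset.subset_univ _))
  have h0 : 0 < m ψ := Nat.pos_of_ne_zero fun h => (Finset.mem_filter.1 hψ).2 (by rw [hm, h]; simp)
  calc charDegree (θ : N → ℂ) ≤ m ψ * charDegree (θ : N → ℂ) := Nat.le_mul_of_pos_left _ h0
    _ ≤ charDegree (ψ : H → ℂ) := hdeg ψ
    _ ≤ m ψ * charDegree (ψ : H → ℂ) := Nat.le_mul_of_pos_left _ h0

/-- With an inverted element of order three the rank is at most two. -/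
theorem rank_le_two {θ : IrrCharacter N} (hinv : ∀ x : G, Brauer.conjIrr N x θ = θ)
    (hN : ¬ 2 ∣ Nat.card N) {x y : G ⧸ N} (hx : orderOf x = 3) (hy : y * x * y⁻¹ = x⁻¹)
    (hcl : ∀ g : G ⧸ N, ¬ 2 ∣ orderOf g → ∃ c : G ⧸ N, c * g * c⁻¹ ∈ Subgroup.zpowers x)
    (B : Set (IrrCharacter G))
    (hB : ∀ χ ∈ B, classInner (fun n : N => (χ : G → ℂ) n) (θ : N → ℂ) ≠ 0) :
    blockRank 2 B ≤ 2 := by
  classical
  set π := QuotientGroup.mk' N with hπ
  set H := (Subgroup.zpowers x).comap π with hHdef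
  letI := Fintype.ofFinite H
  have hNH : N ≤ H := QuotientGroup.le_comap_mk' N _
  have hHcard : Nat.card H = 3 * Nat.card N := by
    rw [hHdef, hπ, PSolv.card_comap_mk, Nat.card_zpowers, hx, mul_comm]
  have hHodd : ∀ h : H, ¬ 2 ∣ orderOf (h : G) := fun h hd => by
    have h1 := hd.trans (Subgroup.orderOf_coe h ▸ orderOf_dvd_natCard h)
    rw [hHcard] at h1
    rcases Nat.prime_two.dvd_mul.1 h1 with h2 | h2
    · omega
    · exact hN h2
  obtain ⟨y₀, rfl⟩ := QuotientGroup.mk'_surjective N y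
  have hτmem : ∀ h : H, y₀ * (h : G) * y₀⁻¹ ∈ H := fun h => by
    show π (y₀ * (h : G) * y₀⁻¹) ∈ Subgroup.zpowers x
    obtain ⟨k, hk⟩ := Subgroup.mem_zpowers_iff.1 (show π (h : G) ∈ Subgroup.zpowers x from h.2)
    rw [map_mul, map_mul, map_inv, ← hk, ← conj_zpow, hy]
    exact zpow_mem (inv_mem (Subgroup.mem_zpowers x)) k
  let τ₀ : H →* H :=
    { toFun := fun h => ⟨y₀ * (h : G) * y₀⁻¹, hτmem h⟩
      map_one' := Subtype.ext (by simp)
      map_mul' := fun a b => Subtype.ext (by simp [mul_assoc]) }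
  let τ : H ≃* H := MulEquiv.ofBijective τ₀ (Finite.injective_iff_bijective.1 fun a b e => by
    have := congrArg Subtype.val e
    exact Subtype.ext (by simpa [τ₀] using this))
  have hτ : ∀ h : H, ((τ h : H) : G) = y₀ * (h : G) * y₀⁻¹ := fun h => rfl
  -- a linear character with kernel `N`
  let ω : ℂˣ := ((Complex.isPrimitiveRoot_exp 3 (by norm_num)).isUnit (by norm_num)).unit
  have hω : orderOf ω = 3 := by
    rw [← orderOf_units, IsUnit.unit_spec]
    exact (Complex.isPrimitiveRoot_exp 3 (by norm_num)).eq_orderOf.symm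
  let x' : Subgroup.zpowers x := ⟨x, Subgroup.mem_zpowers x⟩
  have hx' : ∀ z : Subgroup.zpowers x, z ∈ Subgroup.zpowers x' := fun z => by
    obtain ⟨k, hk⟩ := Subgroup.mem_zpowers_iff.1 z.2
    exact Subgroup.mem_zpowers_iff.2 ⟨k, Subtype.ext (by simpa [x'] using hk)⟩
  let ε : Subgroup.zpowers x →* ℂˣ := monoidHomOfForallMemZpowers hx'
    (show orderOf ω ∣ orderOf x' by rw [hω, Subgroup.orderOf_mk, hx])
  have hε : ε x' = ω := monoidHomOfForallMemZpowers_apply_gen hx' _
  let p₀ : H →* Subgroup.zpowers x :=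
    { toFun := fun h => ⟨π h, h.2⟩
      map_one' := Subtype.ext (map_one π)
      map_mul' := fun a b => Subtype.ext (map_mul π _ _) }
  let lam : H →* ℂˣ := ε.comp p₀
  have hlam1 : ∀ h : H, lam h = 1 → (h : G) ∈ N := fun h hh => by
    obtain ⟨k, hk⟩ := Subgroup.mem_zpowers_iff.1 (hx' (p₀ h))
    have h1 : ω ^ k = 1 := by
      rw [← hε, ← map_zpow, hk]
      exact hh
    rw [← orderOf_dvd_iff_zpow_eq_one, hω] at h1
    have h2 : x ^ k = 1 := by rw [← orderOf_dvd_iff_zpow_eq_one, hx]; exact h1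
    have h3 : π (h : G) = 1 := by
      have := congrArg Subtype.val hk
      simpa [x', p₀, h2] using this.symm
    exact (QuotientGroup.eq_one_iff (h : G)).1 h3
  have hlamN : ∀ h : H, (h : G) ∈ N → lam h = 1 := fun h hh => by
    have : p₀ h = 1 := Subtype.ext ((QuotientGroup.eq_one_iff (h : G)).2 hh)
    rw [MonoidHom.comp_apply, this, map_one]
  have hlamτ : ∀ h : H, lam (τ h) = (lam h)⁻¹ := fun h => by
    rw [MonoidHom.comp_apply, MonoidHom.comp_apply, ← map_inv]
    congr 1
    refine Subtype.ext ?_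
    show π (y₀ * (h : G) * y₀⁻¹) = (π (h : G))⁻¹
    obtain ⟨k, hk⟩ := Subgroup.mem_zpowers_iff.1 (show π (h : G) ∈ Subgroup.zpowers x from h.2)
    rw [map_mul, map_mul, map_inv, ← hk, ← conj_zpow, hy, inv_zpow]
  set S := Finset.univ.filter fun ψ : IrrCharacter H =>
    classInner (BlockCover.resN hNH (ψ : H → ℂ)) (θ : N → ℂ) ≠ 0 with hS
  have hS3 : S.card ≤ 3 := card_over_le hNH hinv hHcard
  -- the coefficients of a character of the block
  have hres : ∀ χ ∈ B, ∃ c : IrrCharacter H → ℂ,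
      (fun h : H => (χ : G → ℂ) h) = ∑ ψ ∈ S, c ψ • (ψ : H → ℂ) ∧
        ∀ ψ ψ' : IrrCharacter H, (∀ h, (ψ' : H → ℂ) h = (ψ : H → ℂ) (τ h)) → c ψ' = c ψ := by
    intro χ hχ
    set f : H → ℂ := fun h => (χ : G → ℂ) h
    have hf : IsCharacter H f := CharInd.isCharacter_res H (Char.isCharacter_of_irr χ.2)
    obtain ⟨c, hc, hc'⟩ := Char.isCharacter_exists_coeff hf
    refine ⟨fun ψ => (c ψ : ℂ), ?_, fun ψ ψ' h => ?_⟩
    · rw [Finset.sum_subset (Finset.subset_univ S) ?_]
      · conv_lhs => rw [hc]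
        try simp only [← Nat.cast_smul_eq_nsmul ℂ]
      intro ψ _ hψ
      rw [hS, Finset.mem_filter, not_and] at hψ
      have hψ0 := not_not.1 (hψ (Finset.mem_univ ψ))
      by_contra hne
      have hc0 : c ψ ≠ 0 := fun h => hne (by simp [h])
      -- all constituents on `N` vanish
      have hsplit : (fun n : N => (χ : G → ℂ) n) =
          ∑ ξ : IrrCharacter H, (c ξ : ℂ) • BlockCover.resN hNH (ξ : H → ℂ) := by
        funext n
        have := congrFun hc ⟨n, hNH n.2⟩
        simp only [Finset.sum_apply, nsmul_eq_mul, Pi.smul_apply, smul_eq_mul] at this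
        simp only [Finset.sum_apply, Pi.smul_apply, smul_eq_mul, BlockCover.resN]
        exact this
      have hchar : ∀ ξ : IrrCharacter H, IsCharacter N (BlockCover.resN hNH (ξ : H → ℂ)) :=
        fun ξ => CharInd.isCharacter_comp (Subgroup.inclusion hNH) (Char.isCharacter_of_irr ξ.2)
      obtain ⟨d, hd, hd'⟩ := Char.isCharacter_exists_coeff (hchar ψ)
      have hzero : ∀ η : IrrCharacter N, d η = 0 := by
        intro η
        by_cases hη : η = θ
        · subst hη
          rw [hd'] at hψ0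
          exact_mod_cast hψ0
        · choose e he using fun ξ => Char.isCharacter_classInner_nat (hchar ξ) η
          have h1 : classInner (fun n : N => (χ : G → ℂ) n) (η : N → ℂ) = 0 := by
            rw [res_eq_smul N hinv (hB χ hχ), Char.classInner_smul_left,
              Char.classInner_irr_ne θ.2 η.2 fun h => hη (Subtype.ext h.symm), mul_zero]
          rw [hsplit, Char.classInner_sum_left] at h1
          simp only [Char.classInner_smul_left, he] at h1
          have h2 : ∑ ξ : IrrCharacter H, c ξ * e ξ = 0 := by exact_mod_cast h1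
          have h3 := (mul_eq_zero.1 (Finset.sum_eq_zero_iff.1 h2 ψ (Finset.mem_univ _))).resolve_left
            hc0
          have h4 := (hd' η).symm.trans (he ψ)
          rw [h3] at h4
          exact_mod_cast h4
      have := congrFun hd 1
      simp only [hzero, Nat.cast_zero, zero_smul, Finset.sum_const_zero, Pi.zero_apply] at this
      exact Char.irr_one_ne_zero ψ.2 this
    · have e1 : classInner f (ψ' : H → ℂ) = classInner f (ψ : H → ℂ) := by
        simp only [classInner]
        congr 1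
        refine Fintype.sum_equiv τ.toEquiv _ _ fun z => ?_
        show f z * conj ((ψ' : H → ℂ) z) = f (τ z) * conj ((ψ : H → ℂ) (τ z))
        rw [h z]
        show (χ : G → ℂ) (z : G) * _ = (χ : G → ℂ) (y₀ * (z : G) * y₀⁻¹) * _
        rw [Char.irr_isClassFunction χ.2 (z : G) y₀]
      rw [hc', hc'] at e1
      exact e1
  -- restriction to `H`
  let Φ : (G → ℂ) →ₗ[ℂ] H → ℂ := LinearMap.funLeft ℂ ℂ (fun h : H => (h : G))
  have hΦ : ∀ χ : IrrCharacter G,
      Φ (pRegularPart 2 (χ : G → ℂ)) = fun h : H => (χ : G → ℂ) h := fun χ =>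
    funext fun h => if_pos (hHodd h)
  have hinj : ∀ f ∈ regFun G, Φ f = 0 → f = 0 := by
    intro f hf h
    funext g
    by_cases hg : 2 ∣ orderOf g
    · exact hf.2 g hg
    obtain ⟨c, hc⟩ := hcl (π g) (fun hd => hg (hd.trans (orderOf_map_dvd π g)))
    obtain ⟨c₀, rfl⟩ := QuotientGroup.mk'_surjective N c
    have hmem : c₀ * g * c₀⁻¹ ∈ H := by
      show π (c₀ * g * c₀⁻¹) ∈ Subgroup.zpowers x
      rw [map_mul, map_mul, map_inv]
      exact hc
    rw [← hf.1 g c₀]
    exact congrFun h ⟨_, hmem⟩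
  by_cases hfix : ∀ ψ ∈ S, ∀ h : H, (ψ : H → ℂ) (τ h) = (ψ : H → ℂ) h
  · -- every constituent vanishes off `N`
    have hvan : ∀ ψ ∈ S, ∀ h : H, (h : G) ∉ N → (ψ : H → ℂ) h = 0 := by
      intro ψ hψ h hh
      let ψ' : IrrCharacter H := ⟨_, Char.isIrrCharacter_mul_monoidHom ψ.2 lam⟩
      have hψ' : ψ' ∈ S := by
        rw [hS, Finset.mem_filter] at hψ ⊢
        refine ⟨Finset.mem_univ _, ?_⟩
        have e : BlockCover.resN hNH (ψ' : H → ℂ) = BlockCover.resN hNH (ψ : H → ℂ) := by
          funext n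
          show (lam _ : ℂ) * _ = _
          rw [hlamN ⟨(n : G), hNH n.2⟩ n.2, Units.val_one, one_mul]
          rfl
        rw [e]
        exact hψ.2
      have h1 : (lam (τ h) : ℂ) * (ψ : H → ℂ) (τ h) = (lam h : ℂ) * (ψ : H → ℂ) h := hfix ψ' hψ' h
      rw [hfix ψ hψ h, hlamτ] at h1
      by_contra hne
      have h2 : (lam h)⁻¹ = lam h := Units.ext (mul_right_cancel₀ hne h1)
      have h3 : lam h ^ 2 = 1 := by
        rw [sq]
        nth_rewrite 1 [← h2]
        rw [inv_mul_cancel]
      have h4 : lam h ^ 3 = 1 := by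
        rw [← map_pow, MonoidHom.comp_apply]
        have h5 : p₀ (h ^ 3) = 1 := by
          rw [map_pow]
          have h6 := pow_card_eq_one' (x := p₀ h)
          rwa [Nat.card_zpowers, hx] at h6
        rw [h5, map_one]
      rw [pow_succ, h3, one_mul] at h4
      exact hh (hlam1 h h4)
    refine (blockRank_le_of_restrict Φ hinj B {extN H (θ : N → ℂ)} fun χ hχ => ?_).trans
      ((Finset.card_singleton _).le.trans one_le_two)
    obtain ⟨c, hc, -⟩ := hres χ hχ
    have e : Φ (pRegularPart 2 (χ : G → ℂ)) =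
        classInner (fun n : N => (χ : G → ℂ) n) (θ : N → ℂ) • extN H (θ : N → ℂ) := by
      rw [hΦ]
      funext h
      simp only [Pi.smul_apply, smul_eq_mul, extN]
      by_cases hh : (h : G) ∈ N
      · rw [dif_pos hh]
        exact congrFun (res_eq_smul N hinv (hB χ hχ)) ⟨h, hh⟩
      · rw [dif_neg hh, mul_zero]
        refine (congrFun hc h).trans ?_
        rw [Finset.sum_apply]
        exact Finset.sum_eq_zero fun ψ hψ => by rw [Pi.smul_apply, hvan ψ hψ h hh, smul_zero]
    rw [e]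
    exact Submodule.smul_mem _ _ (Submodule.subset_span (by simp))
  push Not at hfix
  obtain ⟨ψ₀, hψ₀, h₀, hne⟩ := hfix
  let ψ₁ : IrrCharacter H := ⟨_, Char.isIrrCharacter_comp_mulEquiv ψ₀.2 τ⟩
  have hψ₁ : ∀ h, (ψ₁ : H → ℂ) h = (ψ₀ : H → ℂ) (τ h) := fun h => rfl
  have hne01 : ψ₁ ≠ ψ₀ := fun h => hne (by rw [← hψ₁, h])
  have hψ₁S : ψ₁ ∈ S := by
    rw [hS, Finset.mem_filter] at hψ₀ ⊢
    refine ⟨Finset.mem_univ _, ?_⟩
    have e : BlockCover.resN hNH (ψ₁ : H → ℂ) =
        CharInd.conjChar N y₀ (BlockCover.resN hNH (ψ₀ : H → ℂ)) := by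
      funext n
      rw [CharInd.conjChar_apply]
      exact congrArg (ψ₀ : H → ℂ) (Subtype.ext rfl)
    rw [e]
    conv =>
      arg 1
      rw [show (θ : N → ℂ) = CharInd.conjChar N y₀ (θ : N → ℂ) from
        (congrArg Subtype.val (hinv y₀)).symm, CharInd.classInner_conjChar]
    exact hψ₀.2
  set R := S \ {ψ₀, ψ₁} with hR
  let T : Finset (H → ℂ) :=
    insert ((ψ₀ : H → ℂ) + (ψ₁ : H → ℂ)) (R.image fun ψ : IrrCharacter H => (ψ : H → ℂ))
  have hpair : ({ψ₀, ψ₁} : Finset (IrrCharacter H)) ⊆ S :=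
    Finset.insert_subset hψ₀ (Finset.singleton_subset_iff.2 hψ₁S)
  refine (blockRank_le_of_restrict Φ hinj B T fun χ hχ => ?_).trans ?_
  · obtain ⟨c, hc, hsym⟩ := hres χ hχ
    rw [hΦ, hc, ← Finset.sum_sdiff hpair, ← hR, Finset.sum_pair hne01.symm,
      hsym ψ₀ ψ₁ hψ₁, ← smul_add]
    refine Submodule.add_mem _ (Submodule.sum_mem _ fun ψ hψ => ?_) ?_
    · exact Submodule.smul_mem _ _ (Submodule.subset_span
        (Finset.mem_insert_of_mem (Finset.mem_image_of_mem _ hψ)))
    · exact Submodule.smul_mem _ _ (Submodule.subset_span (Finset.mem_insert_self _ _))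
  · refine (Finset.card_insert_le _ _).trans ?_
    have h1 : R.card + 2 = S.card := by
      rw [← Finset.card_pair hne01.symm, hR, Finset.card_sdiff_add_card_eq_card hpair]
    have := (Finset.card_image_le (s := R) (f := fun ψ : IrrCharacter H => (ψ : H → ℂ)))
    omega

end Cfsg.Agent.DihSolv
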