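import Cfsg.Agent.DihSolv.Structure
import Cfsg.Agent.DihSolv.Rank
import Cfsg.Agent.BlockCover.OneSubsectionSolvable
import Cfsg.Agent.S3116

/-!
# Blocks of soluble groups with dihedral or semidihedral defect groups
-/

set_option autoImplicit false
set_option linter.style.haveILetI false
set_option linter.unusedSectionVars false

namespace Cfsg.Agent.DihSolv

open Cfsg
open Cfsg.Agent.Block

universe u

variable {M : Ideal AlgInt}

theorem Narrow.congr {A B : Type*} [Group A] [Group B] (e : A ≃* B) (h : Narrow A) : Narrow B := by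
  obtain ⟨h1, C, hc, h2, h0⟩ := h
  refine ⟨h1.of_equiv (MulAut.congr e), C.map e.toMonoidHom, ?_, ?_, ?_⟩
  · exact isCyclic_of_surjective (C.equivMapOfInjective e.toMonoidHom e.injective).toMonoidHom
      (MulEquiv.surjective _)
  · rw [Subgroup.index_map_of_bijective e.bijective]
    exact h2
  · rw [Subgroup.index_map_of_bijective e.bijective]
    exact h0

theorem narrow_of_dihedral {D : Type*} [Group D] [Finite D] (h2 : IsPGroup 2 D) {n : ℕ} (hn : 4 ≤ n)
    (e : D ≃* DihedralGroup n) : Narrow D := by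
  haveI : NeZero n := ⟨by omega⟩
  refine ⟨S3116.result h2 (Or.inl ⟨n, hn, ⟨e⟩⟩), Subgroup.zpowers (e.symm (DihedralGroup.r 1)),
    inferInstance, ?_, Subgroup.index_ne_zero_of_finite⟩
  have h := (Subgroup.zpowers (e.symm (DihedralGroup.r 1))).card_mul_index
  rw [Nat.card_zpowers, e.symm.orderOf_eq, DihedralGroup.orderOf_r_one, Nat.card_congr e.toEquiv,
    DihedralGroup.nat_card, mul_comm 2 n] at h
  rw [Nat.eq_of_mul_eq_mul_left (by omega) h]

theorem narrow_of_quasiDihedral {D : Type*} [Group D] [Finite D] (h2 : IsPGroup 2 D)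
    (h : IsQuasiDihedral D) : Narrow D := by
  refine ⟨S3116.result h2 (Or.inr h), ?_⟩
  obtain ⟨n, hn, hcard, x, y, hx, -, -⟩ := h
  refine ⟨Subgroup.zpowers x, inferInstance, ?_, Subgroup.index_ne_zero_of_finite⟩
  have h := (Subgroup.zpowers x).card_mul_index
  rw [Nat.card_zpowers, hx, hcard, pow_succ] at h
  rw [Nat.eq_of_mul_eq_mul_left (by positivity) h]

/-- In a soluble group a block with a dihedral or semidihedral defect group has rank at most two. -/
theorem blockRank_le_two [Fact (Nat.Prime 2)] (hM : IsPModular 2 M) : ∀ (n : ℕ) (G : Type u) [Group G]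
    [Fintype G], Nat.card G = n → Group.IsSolvable G → ∀ (B : Set (IrrCharacter G)) (D : Subgroup G),
    IsPBlock M B → IsDefectGroup 2 M B D → Narrow D → blockRank 2 B ≤ 2 := by
  intro n
  induction n using Nat.strong_induction_on with
  | _ n ih =>
  intro G _ _ hn hsol B D hB hD hD'
  classical
  haveI : M.IsPrime := hM.2.1.isPrime
  have hp := Nat.prime_two
  have hsolv : IsPSolvable 2 G := PSolv.isPSolvable_of_isSolvable hsol
  set N := pPrimeCore 2 G with hNdef
  haveI : N.Normal := pPrimeCore_normal 2 G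
  letI := Fintype.ofFinite N
  have hpN : ¬ 2 ∣ Nat.card N := by
    rw [← hp.coprime_iff_not_dvd, hNdef]
    exact (PSolv.coprime_card_pPrimeCore 2 G).symm
  obtain ⟨χ, hχ⟩ := pBlock_nonempty hB
  obtain ⟨θ, m, hm, hθ⟩ := Char.exists_irr_constituent
    (CharInd.isCharacter_res N (Char.isCharacter_of_irr χ.2))
    (fun h => Char.irr_one_ne_zero χ.2 (congrFun h 1))
  have hθ0 : classInner (fun k : N => (χ : G → ℂ) k) (θ : N → ℂ) ≠ 0 := by
    rw [hθ]; exact Nat.cast_ne_zero.2 hm.ne'
  set T := CharInd.conjStab N (θ : N → ℂ) with hTdef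
  by_cases hT : T = ⊤
  · have hinv : ∀ x : G, Brauer.conjIrr N x θ = θ := fun x =>
      Subtype.ext ((CharInd.mem_conjStab N).1 (show x ∈ T from hT ▸ Subgroup.mem_top x))
    obtain ⟨B₀, hB₀, hiff, hfull⟩ := BlockCover.block_over_pPrimeCore N hM hsolv hNdef θ hinv
    obtain rfl := pBlock_eq_of_mem hB hB₀ hχ ((hiff χ).2 hθ0)
    have hcard := hfull D hD
    let S : Sylow 2 G := Sylow.ofCard D hcard
    -- the image of the Sylow subgroup
    let π := QuotientGroup.mk' N
    let S' : Sylow 2 (G ⧸ N) := S.mapSurjective (QuotientGroup.mk'_surjective N)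
    have hinj : Function.Injective (π.comp D.subtype) := by
      rw [injective_iff_map_eq_one]
      intro d hd
      have hdN : (d : G) ∈ N := (QuotientGroup.eq_one_iff (d : G)).1 hd
      obtain ⟨k, hk⟩ := IsPGroup.iff_orderOf.1 (isDefectGroup_isPGroup hD) d
      have h1 : orderOf d ∣ Nat.card N := by
        rw [← Subgroup.orderOf_coe, ← Subgroup.orderOf_mk (d : G) hdN]
        exact orderOf_dvd_natCard _
      rcases k with - | k
      · exact orderOf_eq_one_iff.1 (by rw [hk, pow_zero])
      · exact absurd (((dvd_pow_self 2 k.succ_ne_zero).trans (hk ▸ dvd_refl _)).trans h1) hpN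
    have hrange : (π.comp D.subtype).range = (S' : Subgroup (G ⧸ N)) := by
      rw [MonoidHom.range_comp, Subgroup.range_subtype]
      rfl
    have hS' : Narrow (S' : Subgroup (G ⧸ N)) :=
      hD'.congr ((MonoidHom.ofInjective hinj).trans (MulEquiv.subgroupCongr hrange))
    have hcore := PSolv.centralizer_pCore_le (PSolv.isPSolvable_quotient hsolv N)
      (PSolv.pPrimeCore_quotient_eq_bot 2 G)
    have hodd : ∀ g : G, ¬ 2 ∣ orderOf g → ¬ 2 ∣ orderOf (π g) := fun g hg hd =>
      hg (hd.trans (orderOf_map_dvd π g))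
    have hBθ : ∀ ξ ∈ B, classInner (fun k : N => (ξ : G → ℂ) k) (θ : N → ℂ) ≠ 0 :=
      fun ξ hξ => (hiff ξ).1 hξ
    rcases odd_elements S' hS' hcore with h1 | ⟨x, y, hx, hy, hcl⟩
    · exact (rank_le_one N hinv (fun g hg => (QuotientGroup.eq_one_iff g).1 (h1 _ (hodd g hg))) B
        hBθ).trans one_le_two
    · exact rank_le_two hinv hpN hx hy hcl B hBθ
  · letI := Fintype.ofFinite T
    have hNT : N ≤ T := CharInd.le_conjStab N (Char.irr_isClassFunction θ.2)
    set b : Set (IrrCharacter N) := {θ} with hbdef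
    have hb : IsPBlock M b := ⟨θ, (BlockCover.blockOf_eq_singleton hM hpN θ).symm⟩
    have hmem : ∀ g : G, g ∈ T ↔ ∀ η ∈ b, Brauer.conjIrr N g η ∈ b := fun g => by
      refine ⟨fun h η hη => ?_, fun h => ?_⟩
      · rw [hbdef, Set.mem_singleton_iff] at hη ⊢
        subst hη
        exact Subtype.ext ((CharInd.mem_conjStab N).1 h)
      · exact (CharInd.mem_conjStab N).2 (congrArg Subtype.val (h θ rfl))
    have hT' : ∀ g : G, g ∈ T ↔ ∀ η ∈ b, ∀ η' : IrrCharacter N,
        (∀ k : N, (η' : N → ℂ) k = (η : N → ℂ) ⟨g * k * g⁻¹,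
          (inferInstance : N.Normal).conj_mem k k.2 g⟩) → η' ∈ b := fun g => by
      rw [hmem]
      refine ⟨fun h η hη η' hη' => ?_, fun h η hη => h η hη _ fun k => ?_⟩
      · rw [show η' = Brauer.conjIrr N g η from Subtype.ext (funext fun k => by
          rw [hη' k]; exact (CharInd.conjChar_apply N g (η : N → ℂ) k).symm)]
        exact h η hη
      · exact CharInd.conjChar_apply N g (η : N → ℂ) k
    obtain ⟨B', hB', hcov, hind⟩ := BlockCover.exists_inducing_block hNT hmem hM hb hB
      ⟨χ, hχ, θ, rfl, hθ0⟩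
    obtain ⟨B₁, hind₁, -, hiff⟩ := BlockCover.induced_block hNT hmem hM hb hB' hcov
    rw [← isInducedBlock_unique hind hind₁] at hiff
    obtain ⟨D', hD'B⟩ := exists_isDefectGroup (p := 2) (M := M) hB'
    have hD'G : IsDefectGroup 2 M B (D'.map T.subtype) :=
      (S4436.result 2 M hM N b hb T hT' hNT B' hB' hcov B hind).1 D' hD'B
    obtain ⟨x, hx⟩ := isDefectGroup_exists_conj_eq hM hB hD'G hD
    have hlt' : Nat.card T < n := hn ▸ lt_of_le_of_ne (Subgroup.card_le_card_group T)
      fun h => hT (Subgroup.eq_top_of_card_eq _ h)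
    have hD'n : Narrow D' := hD'.congr ((MulEquiv.subgroupCongr hx.symm).trans
      (((D'.map T.subtype).equivMapOfInjective _ (MulAut.conj _).injective).symm.trans
        (D'.equivMapOfInjective T.subtype T.subtype_injective).symm))
    exact (BlockCover.OneMore.blockRank_le_of_indFun fun ξ h => (hiff ξ).1 h).trans
      (ih _ hlt' T rfl (solvable_of_solvable_injective (f := T.subtype) T.subtype_injective) B' D'
        hB' hD'B hD'n)

end Cfsg.Agent.DihSolv
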