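import Cfsg.Agent.DihSolv.FusionCount
import Cfsg.Agent.FusionSys.Saturation

/-!
# Fusion classes of rotations of a dihedral defect group
-/

noncomputable section

set_option autoImplicit false
set_option linter.unusedSectionVars false
set_option linter.style.haveILetI false

namespace Cfsg.Agent.FusionCount

open Cfsg Cfsg.Agent.BrauerPairs Cfsg.Agent.BlkStar Cfsg.FusionSystem Cfsg.Agent.FusionSys
open scoped Classical

universe u

variable [Fact (Nat.Prime 2)] {M : Ideal AlgInt} [M.IsPrime] [CharP (Block.ResF M) 2]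
  {G : Type u} [Group G] [Fintype G] (D : SD 2 M G) {m : ℕ} (e : D.P ≃* DihedralGroup m)

/-- A generator of the rotations. -/
def rot : G := ((e.symm (DihedralGroup.r 1) : D.P) : G)

variable {D} {e}

theorem rot_mem : rot D e ∈ D.P := (e.symm (DihedralGroup.r 1)).2

theorem orderOf_rot : orderOf (rot D e) = m := by
  rw [rot, Subgroup.orderOf_coe, e.symm.orderOf_eq, DihedralGroup.orderOf_r_one]

variable [NeZero m]

theorem mem_zpowers_rot {d : D.P} :
    (d : G) ∈ Subgroup.zpowers (rot D e) ↔ ∃ i, e d = DihedralGroup.r i := by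
  constructor
  · rintro ⟨k, hk⟩
    have : d = (e.symm (DihedralGroup.r 1)) ^ k := Subtype.ext (by simpa [rot] using hk.symm)
    exact ⟨k, by rw [this, map_zpow, e.apply_symm_apply, DihedralGroup.r_one_zpow]⟩
  · rintro ⟨i, hi⟩
    refine ⟨(i.cast : ℤ), ?_⟩
    have : (e.symm (DihedralGroup.r 1)) ^ (i.cast : ℤ) = d := e.injective (by
      rw [map_zpow, e.apply_symm_apply, DihedralGroup.r_one_zpow, hi, ZMod.intCast_zmod_cast])
    rw [← this]
    simp [rot]

theorem orderOf_of_notMem {x : G} (hx : x ∈ D.P) (h : x ∉ Subgroup.zpowers (rot D e)) :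
    orderOf x = 2 := by
  rcases he : e ⟨x, hx⟩ with i | i
  · exact absurd ((mem_zpowers_rot (d := ⟨x, hx⟩)).2 ⟨i, he⟩) h
  · rw [← Subgroup.orderOf_mk x hx, ← e.orderOf_eq, he, DihedralGroup.orderOf_sr]

theorem conj_rot {g x : G} (hg : g ∈ D.P) (hn : g ∉ Subgroup.zpowers (rot D e))
    (hx : x ∈ Subgroup.zpowers (rot D e)) : g * x * g⁻¹ = x⁻¹ := by
  obtain ⟨k, rfl⟩ := Subgroup.mem_zpowers_iff.1 hx
  have h1 : g * rot D e * g⁻¹ = (rot D e)⁻¹ := by
    rcases he : e ⟨g, hg⟩ with i | i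
    · exact absurd ((mem_zpowers_rot (d := ⟨g, hg⟩)).2 ⟨i, he⟩) hn
    have h2 : (⟨g, hg⟩ : D.P) * e.symm (DihedralGroup.r 1) * (⟨g, hg⟩ : D.P)⁻¹ =
        (e.symm (DihedralGroup.r 1))⁻¹ := e.injective (by
      simp [he, map_mul, map_inv, e.apply_symm_apply, DihedralGroup.inv_r, DihedralGroup.inv_sr,
        DihedralGroup.sr_mul_r, DihedralGroup.sr_mul_sr])
    exact congrArg Subtype.val h2
  rw [← conj_zpow, h1, inv_zpow]

theorem centralizerIn_eq {x : G} (hx : x ∈ Subgroup.zpowers (rot D e)) (h2 : 2 < orderOf x) :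
    centralizerIn D.P (Subgroup.zpowers x) = Subgroup.zpowers (rot D e) := by
  refine le_antisymm (fun g hg => ?_) (fun g hg => ⟨(Subgroup.zpowers_le.2 rot_mem) hg, ?_⟩)
  · by_contra hn
    have h1 := conj_rot hg.1 hn hx
    rw [← Subgroup.mem_centralizer_iff.1 hg.2 x (Subgroup.mem_zpowers x), mul_inv_cancel_right] at h1
    have h3 : orderOf x ∣ 2 := orderOf_dvd_of_pow_eq_one (by
      rw [sq]; nth_rewrite 2 [h1]; exact mul_inv_cancel x)
    have := Nat.le_of_dvd two_pos h3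
    omega
  · obtain ⟨i, rfl⟩ := Subgroup.mem_zpowers_iff.1 hg
    obtain ⟨k, rfl⟩ := Subgroup.mem_zpowers_iff.1 hx
    refine Subgroup.mem_centralizer_iff.2 fun y hy => ?_
    obtain ⟨j, rfl⟩ := Subgroup.mem_zpowers_iff.1 hy
    exact (((Commute.refl (rot D e)).zpow_zpow k i).zpow_left j).eq

/-- The map generated by an automorphism of the rotations is inner. -/
theorem cls_rot {v v' : D.P} (hv : (v : G) ∈ Subgroup.zpowers (rot D e)) (h2 : 2 < orderOf (v : G))
    (h : v' ∈ cls D v) : v' = v ∨ v' = v⁻¹ := by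
  have hCS : (Subgroup.zpowers (rot D e)) ≤ D.P := Subgroup.zpowers_le.2 rot_mem
  have hS : IsPGroup 2 D.P := D.isPGroup
  haveI : Finite D.P := inferInstance
  obtain ⟨φ, hφ, hφv⟩ := exists_hom_of_mem_cls D h
  have hord : ∀ {Q : Subgroup G} {ψ : Q →* G}, ψ ∈ D.F.Hom Q → ∀ x : Q,
      orderOf (ψ x) = orderOf (x : G) := fun {Q ψ} hψ x => by
    rw [orderOf_injective ψ (D.F.injective_of_mem hψ), Subgroup.orderOf_coe]
  have hv' : orderOf (v' : G) = orderOf (v : G) := by rw [← hφv, hord hφ]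
  have hrot : ∀ x : G, x ∈ D.P → 2 < orderOf x → x ∈ (Subgroup.zpowers (rot D e)) := fun x hx hx2 => by
    by_contra hn
    rw [orderOf_of_notMem hx hn] at hx2
    omega
  have hv'C : (v' : G) ∈ (Subgroup.zpowers (rot D e)) := hrot _ v'.2 (hv'.symm ▸ h2)
  have hfc : D.F.IsFullyCentralized (Subgroup.zpowers (v' : G)) := by
    refine ⟨Subgroup.zpowers_le.2 v'.2, ?_⟩
    rintro R ⟨ψ, hψ, rfl⟩
    set r := ψ ⟨(v' : G), Subgroup.mem_zpowers _⟩ with hr
    have hR : ψ.range = Subgroup.zpowers r := by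
      refine le_antisymm ?_ (Subgroup.zpowers_le.2 ⟨_, rfl⟩)
      rintro _ ⟨⟨x, hx⟩, rfl⟩
      obtain ⟨k, hk⟩ := Subgroup.mem_zpowers_iff.1 hx
      refine Subgroup.mem_zpowers_iff.2 ⟨k, ?_⟩
      rw [hr, ← map_zpow]
      exact congrArg ψ (Subtype.ext (by simpa using hk))
    have hro : 2 < orderOf r := by rw [hr, hord hψ]; exact hv'.symm ▸ h2
    rw [hR, centralizerIn_eq (hrot r ((D.F.le_of_mem hψ).2 _) hro) hro,
      centralizerIn_eq hv'C (hv'.symm ▸ h2)]
  have hrec := receptive_of_isFullyCentralized D.isFS hfc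
  have hrange : φ.range = Subgroup.zpowers (v' : G) := by
    refine le_antisymm ?_ (Subgroup.zpowers_le.2 ⟨_, hφv⟩)
    rintro _ ⟨⟨x, hx⟩, rfl⟩
    obtain ⟨k, hk⟩ := Subgroup.mem_zpowers_iff.1 hx
    refine Subgroup.mem_zpowers_iff.2 ⟨k, ?_⟩
    rw [← hφv, ← map_zpow]
    exact congrArg φ (Subtype.ext (by simpa using hk))
  obtain ⟨ψ, hψ, hψext⟩ := hrec.2 _ φ hφ hrange
  have hCN : (Subgroup.zpowers (rot D e)) ≤ extender D.P (Subgroup.zpowers (v : G)) φ :=
    (centralizerIn_eq hv h2).ge.trans (centralizerIn_le_extender φ)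
  set χ : (Subgroup.zpowers (rot D e)) →* G := ψ.comp (Subgroup.inclusion hCN) with hχdef
  have hχ : χ ∈ D.F.Hom (Subgroup.zpowers (rot D e)) := restr_mem D.F hCN hψ
  have hσ2 : 2 < orderOf (rot D e) :=
    lt_of_lt_of_le h2 (Nat.le_of_dvd (orderOf_pos _) (orderOf_dvd_of_mem_zpowers hv))
  have hχσ : χ ⟨rot D e, Subgroup.mem_zpowers _⟩ ∈ (Subgroup.zpowers (rot D e)) :=
    hrot _ ((D.F.le_of_mem hχ).2 _) (by rw [hord hχ]; exact hσ2)
  have hχr : χ.range = (Subgroup.zpowers (rot D e)) := by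
    refine range_eq_of_image_le (D.F.injective_of_mem hχ) ?_ le_rfl
    rintro _ ⟨⟨x, hx⟩, rfl⟩
    obtain ⟨k, hk⟩ := Subgroup.mem_zpowers_iff.1 hx
    have : (⟨x, hx⟩ : (Subgroup.zpowers (rot D e))) = (⟨rot D e, Subgroup.mem_zpowers _⟩ : (Subgroup.zpowers (rot D e))) ^ k :=
      Subtype.ext (by simpa using hk.symm)
    rw [this, map_zpow]
    exact zpow_mem hχσ k
  set α := toIso D.F hχ hχr
  have hα : α ∈ D.F.autGroup (Subgroup.zpowers (rot D e)) := toIso_mem_autGroup D.F hχ hχr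
  have hnorm : normalizerIn D.P (Subgroup.zpowers (rot D e)) = D.P := by
    refine inf_eq_left.2 fun g hg => ?_
    refine Subgroup.mem_normalizer_iff_map_conj_eq.2 ?_
    refine Subgroup.eq_of_le_of_card_ge ?_ (Subgroup.card_map_of_injective
      (MulAut.conj g).injective).ge
    rw [MonoidHom.map_zpowers, Subgroup.zpowers_le]
    show g * rot D e * g⁻¹ ∈ Subgroup.zpowers (rot D e)
    by_cases hgC : g ∈ Subgroup.zpowers (rot D e)
    · exact mul_mem (mul_mem hgC (Subgroup.mem_zpowers _)) (inv_mem hgC)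
    · rw [conj_rot hg hgC (Subgroup.mem_zpowers _)]
      exact inv_mem (Subgroup.mem_zpowers _)
  have hfn : D.F.IsFullyNormalized (Subgroup.zpowers (rot D e)) := ⟨hCS, fun Q _ => by
    rw [hnorm]
    exact Subgroup.card_le_of_le inf_le_left⟩
  obtain ⟨-, -, R, hR⟩ := saturated_fullyNormalized hS
    (isSaturated_of_isBlockFusionSystemOn D.isFS) hfn
  have hpaut : IsPGroup 2 (MulAut (Subgroup.zpowers (rot D e))) := by
    obtain ⟨j, hj⟩ := IsPGroup.iff_orderOf.1 hS ⟨rot D e, rot_mem⟩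
    rw [Subgroup.orderOf_mk] at hj
    rcases j with - | j
    · rw [hj, pow_zero] at hσ2
      omega
    refine IsPGroup.of_card (n := j) ?_
    rw [IsCyclic.card_mulAut, Nat.card_zpowers, hj, Nat.totient_prime_pow_succ Nat.prime_two,
      show (2 : ℕ) - 1 = 1 from rfl, mul_one]
  have hRtop : (R : Subgroup (D.F.autGroup (Subgroup.zpowers (rot D e)))) = ⊤ :=
    (R.is_maximal' ((hpaut.to_subgroup (D.F.autGroup (Subgroup.zpowers (rot D e)))).to_subgroup ⊤) le_top).symm
  have hind : α ∈ autInducedBy D.P (Subgroup.zpowers (rot D e)) := by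
    have : (⟨α, hα⟩ : D.F.autGroup (Subgroup.zpowers (rot D e))) ∈ (autInducedBy D.P (Subgroup.zpowers (rot D e))).subgroupOf (D.F.autGroup (Subgroup.zpowers (rot D e))) := by
      rw [← hR, hRtop]
      exact Subgroup.mem_top _
    exact this
  obtain ⟨g, hg, hgx⟩ := mem_autInducedBy.1 hind
  have hval : g * (v : G) * g⁻¹ = (v' : G) := by
    have h1 := hgx ⟨(v : G), hv⟩
    rw [toIso_coe] at h1
    rw [← hφv, ← h1]
    exact hψext _ _ _
  by_cases hgC : g ∈ (Subgroup.zpowers (rot D e))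
  · left
    refine Subtype.ext ?_
    rw [← hval]
    obtain ⟨i, rfl⟩ := Subgroup.mem_zpowers_iff.1 hgC
    obtain ⟨k, hk⟩ := Subgroup.mem_zpowers_iff.1 hv
    rw [← hk, ((Commute.refl (rot D e)).zpow_zpow i k).eq, mul_inv_cancel_right]
  · right
    refine Subtype.ext ?_
    rw [← hval, conj_rot hg hgC hv]
    rfl

end Cfsg.Agent.FusionCount
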