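import Cfsg.Agent.PGroup.Frattini
import Cfsg.Agent.PSolv.HallHigman
import Cfsg.Agent.PSolv.Cores
import Mathlib.GroupTheory.Transfer
import Mathlib.GroupTheory.Perm.Basic

/-!
# Groups with a self-centralizing 2-core inside a narrow Sylow 2-subgroup
-/

set_option autoImplicit false
set_option linter.style.haveILetI false
set_option linter.unusedSectionVars false

namespace Cfsg.Agent.DihSolv

open Cfsg

/-- A cyclic subgroup of index two and a 2-group of automorphisms. -/
def Narrow (S : Type*) [Group S] : Prop :=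
  IsPGroup 2 (MulAut S) ∧ ∃ C : Subgroup S, IsCyclic C ∧ C.index ≤ 2 ∧ C.index ≠ 0

theorem two_generated {R : Type*} [Group R] (C : Subgroup R) (hc : IsCyclic C) (h2 : C.index ≤ 2)
    (h0 : C.index ≠ 0) : ∃ a b : R, Subgroup.closure ({a, b} : Set R) = ⊤ := by
  obtain ⟨c, hgen⟩ := hc.exists_generator
  have hC : ∀ {K : Subgroup R}, (c : R) ∈ K → C ≤ K := by
    intro K hK x hx
    obtain ⟨k, hk⟩ := Subgroup.mem_zpowers_iff.1 (hgen ⟨x, hx⟩)
    have : (c : R) ^ k = x := by simpa using congrArg Subtype.val hk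
    exact this ▸ zpow_mem hK k
  by_cases h1 : C.index = 1
  · refine ⟨c, 1, eq_top_iff.2 ?_⟩
    rw [← Subgroup.index_eq_one.1 h1]
    exact hC (Subgroup.subset_closure (by simp))
  · have hi : C.index = 2 := by omega
    obtain ⟨r, hr⟩ : ∃ r : R, r ∉ C := by
      by_contra h
      push Not at h
      exact h1 (Subgroup.index_eq_one.2 (eq_top_iff.2 fun x _ => h x))
    refine ⟨c, r, eq_top_iff.2 fun x _ => ?_⟩
    set K := Subgroup.closure ({(c : R), r} : Set R)
    have hCK : C ≤ K := hC (Subgroup.subset_closure (by simp))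
    have hrK : r ∈ K := Subgroup.subset_closure (by simp)
    by_cases hx : x ∈ C
    · exact hCK hx
    · have hxr : x * r ∈ C := by
        rw [Subgroup.mul_mem_iff_of_index_two hi]
        simp [hx, hr]
      simpa using mul_mem (hCK hxr) (inv_mem hrK)

theorem two_generated_le {X : Type*} [Group X] [Finite X] {S R : Subgroup X}
    (hS : Narrow S) (hRS : R ≤ S) : ∃ a b : R, Subgroup.closure ({a, b} : Set R) = ⊤ := by
  obtain ⟨-, C, hc, h2, -⟩ := hS
  set i := Subgroup.inclusion hRS
  refine two_generated (C.comap i) ?_ ?_ Subgroup.index_ne_zero_of_finite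
  · let j : C.comap i →* C :=
      { toFun := fun x => ⟨i x.1, x.2⟩
        map_one' := rfl
        map_mul' := fun _ _ => rfl }
    exact isCyclic_of_injective j fun x y h =>
      Subtype.ext (Subgroup.inclusion_injective hRS (congrArg Subtype.val h))
  · refine le_trans ?_ h2
    rw [Subgroup.index_comap]
    rw [← Subgroup.relIndex_top_right]
    exact Subgroup.relIndex_le_of_le_right le_top
      (by rw [Subgroup.relIndex_top_right]; exact Subgroup.index_ne_zero_of_finite)

theorem card_mulAut_dvd {V : Type*} [Group V] [Finite V] (h : Nat.card V ≤ 4) :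
    Nat.card (MulAut V) ∣ 24 := by
  classical
  haveI := Fintype.ofFinite V
  let f : MulAut V →* Equiv.Perm V :=
    { toFun := fun e => e.toEquiv
      map_one' := rfl
      map_mul' := fun _ _ => rfl }
  have h1 := Subgroup.card_dvd_of_injective f fun a b e =>
    MulEquiv.ext fun x => congrArg (fun g : Equiv.Perm V => g x) e
  refine h1.trans ?_
  rw [Nat.card_perm]
  exact (Nat.factorial_dvd_factorial h).trans (by rfl)

/-- The order of the group has odd part at most three. -/
theorem card_cases {X : Type*} [Group X] [Finite X] (S : Sylow 2 X) (hS : Narrow (S : Subgroup X))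
    (hcore : Subgroup.centralizer (pCore 2 X : Set X) ≤ pCore 2 X) :
    ∃ m, Nat.card X = 2 ^ m ∨ Nat.card X = 3 * 2 ^ m := by
  classical
  set R := pCore 2 X with hR
  haveI : R.Normal := pCore_normal 2 X
  have hR2 : IsPGroup 2 R := PSolv.isPGroup_pCore 2 X
  obtain ⟨a, b, hab⟩ := two_generated_le hS (PSolv.pCore_le_sylow S)
  let V := R ⧸ frattini R
  have hV : Nat.card V ≤ 4 := by
    rw [← Subgroup.index_eq_card]
    refine (PGroup.index_frattini_le_pow_card hR2 (S := {a, b}) (by simpa using hab)).trans ?_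
    exact (Nat.pow_le_pow_right two_pos Finset.card_le_two).trans (by norm_num)
  let q : MulAut R →* MulAut V :=
    { toFun := fun e => QuotientGroup.congr (frattini R) (frattini R) e
        (Subgroup.characteristic_iff_map_eq.1 inferInstance e)
      map_one' := MulEquiv.ext fun x => QuotientGroup.induction_on x fun y => rfl
      map_mul' := fun u v => MulEquiv.ext fun x => QuotientGroup.induction_on x fun y => rfl }
  let f : X →* MulAut V := q.comp MulAut.conjNormal
  have hker : ∀ r : ℕ, r.Prime → r ∣ Nat.card f.ker → r = 2 := by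
    intro r hr hd
    by_contra hne
    haveI := Fact.mk hr
    obtain ⟨k, hk⟩ := exists_prime_orderOf_dvd_card' (G := f.ker) r hd
    have hco : Nat.Coprime r 2 := (Nat.coprime_primes hr Nat.prime_two).2 hne
    set α : MulAut R := MulAut.conjNormal (k : X) with hα
    have hα1 : α = 1 := by
      refine PGroup.mulAut_eq_one_of_frattini hR2 α (Nat.Coprime.coprime_dvd_left ?_ hco) ?_
      · rw [← hk, ← Subgroup.orderOf_coe k]
        exact orderOf_map_dvd _ _
      · intro x
        have h := DFunLike.congr_fun (MonoidHom.mem_ker.1 k.2) (x : V)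
        exact QuotientGroup.eq.1 h.symm
    have hkR : (k : X) ∈ R := hcore fun x hx => by
      have h := congrArg Subtype.val (DFunLike.congr_fun hα1 (⟨x, hx⟩ : R))
      rw [hα, MulAut.conjNormal_apply] at h
      exact (mul_inv_eq_iff_eq_mul.1 h).symm
    obtain ⟨e, he⟩ := IsPGroup.iff_orderOf.1 hR2 ⟨k, hkR⟩
    rw [Subgroup.orderOf_mk, Subgroup.orderOf_coe, hk] at he
    exact hne ((Nat.prime_dvd_prime_iff_eq hr Nat.prime_two).1
      (hr.dvd_of_dvd_pow (he ▸ dvd_refl r : r ∣ 2 ^ e)))
  obtain ⟨n, hn⟩ : ∃ n, Nat.card f.ker = 2 ^ n :=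
    ⟨_, Nat.eq_prime_pow_of_unique_prime_dvd Nat.card_pos.ne' fun {d} hd hdd => hker d hd hdd⟩
  have hd : Nat.card X ∣ 2 ^ n * (3 * 2 ^ 3) := by
    rw [← Subgroup.card_mul_index f.ker, hn, Subgroup.index_ker]
    exact mul_dvd_mul_left _ ((Subgroup.card_subgroup_dvd_card _).trans (card_mulAut_dvd hV))
  obtain ⟨u, w, hu, hw, huw⟩ := exists_dvd_and_dvd_of_dvd_mul
    (show Nat.card X ∣ 3 * 2 ^ (n + 3) from (by ring_nf; ring_nf at hd; exact hd))
  obtain ⟨m, -, rfl⟩ := (Nat.dvd_prime_pow Nat.prime_two).1 hw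
  refine ⟨m, ?_⟩
  rcases (Nat.dvd_prime Nat.prime_three).1 hu with rfl | rfl
  · exact Or.inl (by rw [huw, one_mul])
  · exact Or.inr huw

/-- Either there is no element of odd order but the identity, or they are the conjugates of the
powers of an inverted element of order three. -/
theorem odd_elements {X : Type*} [Group X] [Finite X] (S : Sylow 2 X)
    (hS : Narrow (S : Subgroup X))
    (hcore : Subgroup.centralizer (pCore 2 X : Set X) ≤ pCore 2 X) :
    (∀ g : X, ¬ 2 ∣ orderOf g → g = 1) ∨
      ∃ x y : X, orderOf x = 3 ∧ y * x * y⁻¹ = x⁻¹ ∧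
        ∀ g : X, ¬ 2 ∣ orderOf g → ∃ c : X, c * g * c⁻¹ ∈ Subgroup.zpowers x := by
  classical
  obtain ⟨m, hm | hm⟩ := card_cases S hS hcore
  · left
    intro g hg
    obtain ⟨k, -, hk⟩ := (Nat.dvd_prime_pow Nat.prime_two).1 (hm ▸ orderOf_dvd_natCard g)
    rcases k with - | k
    · exact orderOf_eq_one_iff.1 (by rw [hk, pow_zero])
    · exact absurd (hk ▸ dvd_pow_self 2 k.succ_ne_zero) hg
  right
  haveI : Fact (Nat.Prime 3) := ⟨Nat.prime_three⟩
  obtain ⟨x, hx⟩ := exists_prime_orderOf_dvd_card' (G := X) 3 (hm ▸ dvd_mul_right 3 _)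
  have h32 : ¬ 3 ∣ 2 ^ m := fun h => by
    have := (Nat.prime_dvd_prime_iff_eq Nat.prime_three Nat.prime_two).1
      (Nat.prime_three.dvd_of_dvd_pow h)
    omega
  have hcard : Nat.card (Subgroup.zpowers x) = 3 ^ (Nat.card X).factorization 3 := by
    rw [Nat.card_zpowers, hx, hm, Nat.factorization_mul (by norm_num) (by positivity),
      Finsupp.add_apply, Nat.prime_three.factorization_self,
      Nat.factorization_eq_zero_of_not_dvd h32, pow_one]
  let P : Sylow 3 X := Sylow.ofCard (Subgroup.zpowers x) hcard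
  have hPx : (P : Subgroup X) = Subgroup.zpowers x := rfl
  obtain ⟨y, hy⟩ : ∃ y, y * x * y⁻¹ = x⁻¹ := by
    by_contra hno
    push Not at hno
    have hP : Subgroup.normalizer ((P : Subgroup X) : Set X) ≤
        Subgroup.centralizer ((P : Subgroup X) : Set X) := by
      intro y hy
      rw [hPx] at hy ⊢
      have hyx : y * x * y⁻¹ ∈ Subgroup.zpowers x :=
        (Subgroup.mem_normalizer_iff.1 hy x).1 (Subgroup.mem_zpowers x)
      have hyx' : y * x = x * y := by
        rw [mem_zpowers_iff_mem_range_orderOf, Finset.mem_image] at hyx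
        obtain ⟨k, hk, hk'⟩ := hyx
        rw [hx, Finset.mem_range] at hk
        have hxne : x ≠ 1 := fun h => by rw [h, orderOf_one] at hx; omega
        have hk'' : x ^ k = y * x * y⁻¹ := hk'
        interval_cases k
        · rw [pow_zero] at hk''
          exact absurd ((mul_eq_left).1 (mul_inv_eq_one.1 hk''.symm)) hxne
        · rw [pow_one] at hk''
          exact eq_mul_of_mul_inv_eq hk''.symm
        · exfalso
          refine hno y (hk''.symm.trans (eq_inv_of_mul_eq_one_left ?_))
          rw [← pow_succ]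
          have h3x := pow_orderOf_eq_one x
          rw [hx] at h3x
          exact h3x
      refine Subgroup.mem_centralizer_iff.2 fun z hz => ?_
      obtain ⟨k, rfl⟩ := Subgroup.mem_zpowers_iff.1 hz
      exact ((show Commute x y from hyx'.symm).zpow_left k).eq
    set K := (MonoidHom.transferSylow P hP).ker
    have hc := MonoidHom.ker_transferSylow_isComplement' P hP
    have hK : Nat.card K = 2 ^ m := by
      have h := hc.card_mul_card
      rw [show Nat.card (P : Subgroup X) = 3 from (Nat.card_zpowers x).trans hx, hm] at h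
      exact Nat.eq_of_mul_eq_mul_right (by norm_num) (h.trans (mul_comm _ _))
    have hKR : K ≤ pCore 2 X := PSolv.le_pCore inferInstance (IsPGroup.of_card hK)
    have hScard : Nat.card (S : Subgroup X) = 2 ^ m := by
      rw [Sylow.card_eq_multiplicity, hm, Nat.factorization_mul (by norm_num) (by positivity),
        Finsupp.add_apply, Nat.prime_two.factorization_pow, Finsupp.single_eq_same,
        Nat.factorization_eq_zero_of_not_dvd (by norm_num : ¬ 2 ∣ 3), zero_add]
    have hRS : pCore 2 X = (S : Subgroup X) :=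
      Subgroup.eq_of_le_of_card_ge (PSolv.pCore_le_sylow S) (hScard.trans_le
        (hK.symm.trans_le (Nat.le_of_dvd Nat.card_pos (Subgroup.card_dvd_of_le hKR))))
    haveI : (S : Subgroup X).Normal := hRS ▸ pCore_normal 2 X
    obtain ⟨e, he⟩ := IsPGroup.iff_orderOf.1 hS.1
      (MulAut.conjNormal x : MulAut (S : Subgroup X))
    have h3 := orderOf_map_dvd (MulAut.conjNormal (H := (S : Subgroup X))) x
    rw [he, hx] at h3
    have he0 : e = 0 := by
      by_contra h
      have := (dvd_pow_self 2 h).trans h3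
      omega
    rw [he0, pow_zero, orderOf_eq_one_iff] at he
    have hxR : x ∈ pCore 2 X := hcore fun z hz => by
      have h := congrArg Subtype.val (DFunLike.congr_fun he (⟨z, hRS ▸ hz⟩ : (S : Subgroup X)))
      rw [MulAut.conjNormal_apply] at h
      exact (mul_inv_eq_iff_eq_mul.1 h).symm
    obtain ⟨e, he⟩ := IsPGroup.iff_orderOf.1 (PSolv.isPGroup_pCore 2 X) ⟨x, hxR⟩
    rw [Subgroup.orderOf_mk, hx] at he
    rcases e with - | e
    · simp at he
    · rw [pow_succ] at he
      omega
  refine ⟨x, y, hx, hy, fun g hg => ?_⟩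
  have h1 : orderOf g ∣ 3 ^ 1 := by
    have := hm ▸ orderOf_dvd_natCard g
    rw [pow_one]
    exact (Nat.Coprime.pow_right m (Nat.prime_two.coprime_iff_not_dvd.2 hg).symm).dvd_of_dvd_mul_right
      this
  obtain ⟨k, -, hk⟩ := (Nat.dvd_prime_pow Nat.prime_three).1 h1
  obtain ⟨Q, hQ⟩ := (IsPGroup.of_card (n := k) (by rw [Nat.card_zpowers, hk]) :
    IsPGroup 3 (Subgroup.zpowers g)).exists_le_sylow
  obtain ⟨c, hc⟩ := MulAction.exists_smul_eq X Q P
  refine ⟨c, ?_⟩
  rw [← hPx, ← hc]
  exact ⟨g, hQ (Subgroup.mem_zpowers g), rfl⟩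

end Cfsg.Agent.DihSolv
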